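import Cfsg.Agent.H11.SimDSpec

/-! A `p`-group of matrices in characteristic `p` fixes a non-zero vector of an invariant subspace. -/

set_option autoImplicit false

namespace H90.SimDN1

open Subgroup Matrix H0.Sim H11.SimD

theorem jobD_N1 : JobN1 := by
  intro n F _ _ P X hP hX hS
  haveI : Fact (ringChar F).Prime := ⟨CharP.char_is_prime F (ringChar F)⟩
  letI : MulAction P X :=
    { smul := fun y x => ⟨((y : GL (Fin n) F) : Mt n F) *ᵥ (x : Fin n → F), hS y y.2 x x.2⟩
      one_smul := fun x => Subtype.ext (by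
        change (((1 : P) : GL (Fin n) F) : Mt n F) *ᵥ (x : Fin n → F) = x
        simp)
      mul_smul := fun a b x => Subtype.ext (by
        change (((a * b : P) : GL (Fin n) F) : Mt n F) *ᵥ (x : Fin n → F) =
          ((a : GL (Fin n) F) : Mt n F) *ᵥ (((b : GL (Fin n) F) : Mt n F) *ᵥ (x : Fin n → F))
        simp [mulVec_mulVec]) }
  have hs : ∀ (y : P) (x : X), ((y • x : X) : Fin n → F) =
      ((y : GL (Fin n) F) : Mt n F) *ᵥ (x : Fin n → F) := fun _ _ => rfl
  have hd : ringChar F ∣ Nat.card X := by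
    have h1 : Nat.card X = Nat.card F ^ Module.finrank F X := Module.natCard_eq_pow_finrank
    have h2 : Module.finrank F X ≠ 0 := fun h => hX (Submodule.finrank_eq_zero.1 h)
    rw [h1]
    refine dvd_pow ?_ h2
    rw [Nat.card_eq_fintype_card]
    exact (prime_dvd_char_iff_dvd_card (ringChar F)).1 dvd_rfl
  have h0 : (0 : X) ∈ MulAction.fixedPoints P X := fun y => Subtype.ext (by rw [hs]; simp)
  obtain ⟨b, hb, hne⟩ := hP.exists_fixed_point_of_prime_dvd_card_of_fixed_point X hd h0
  refine ⟨b, b.2, fun e => hne (Subtype.ext e).symm, fun y hy => ?_⟩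
  exact congrArg Subtype.val (hb ⟨y, hy⟩)

end H90.SimDN1
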