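/- U4 tower (row S5210), chapter q = 3: the jobs. Proofs: blueprints/Q3.md. -/
import Cfsg.Agent.H90.Q3L

set_option autoImplicit false
set_option linter.unusedSectionVars false
set_option linter.unusedVariables false

open Subgroup H28.U4 H77 Cfsg
open H90.RF (aY)

namespace H90.Q3

/-- a root orthogonal to `a0`, `a1` -/
def ff : V := ⟨1, 1, 1, 1, -1⟩
/-- the field automorphism -/
def e4 : V := ⟨0, 0, 0, 0, 1⟩
/-- minus the highest root of `D₄` -/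
def c3' : V := ⟨-1, -1, 0, 0, 0⟩
/-- the letters that normalize `⟨ub 1⟩` -/
def NL : List V := [a3, a4, ee, ff, e4, ng a3, ng a4]
/-- the word of `tg` -/
def tl (m n : ℕ) : List V := (List.replicate m [ee, ng a4]).flatten ++ (List.replicate n [ff, ng a3]).flatten
/-- a basis of `A₄` -/
def bA : Fin 4 → V := ![a0, a1, a2, a3]
/-- a basis of `D₄` -/
def bD : Fin 4 → V := ![a0, a1, a2, b3]
/-- the graph automorphism of `D₄` inside `W(D₅)` -/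
def E1 : Equiv.Perm W := Jp a3 * Jp a4
/-- `W(D₄).2` -/
def GE : Subgroup (Equiv.Perm W) := GG pD4 ⊔ zpowers E1

theorem NL_ne : ∀ a ∈ NL, dot a a ≠ 0 := by decide +kernel
theorem tl_NL : ∀ m n : Fin 3, ∀ a ∈ tl m n, a ∈ NL := by decide +kernel
theorem tl_ne (m n : Fin 3) : ∀ a ∈ tl m n, dot a a ≠ 0 := fun a h => NL_ne a (tl_NL m n a h)

theorem ad_ub (b : F9) : Ad (ub b) := by
  intro w w'
  simp only [ub_apply, Prod.mk_add_mk, Prod.fst_add, Prod.snd_add, Prod.mk.injEq, true_and]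
  ring
theorem ad_tg (γ : F9) : Ad (tg T9 γ) := by
  intro w w'
  simp only [tg_apply, Prod.mk_add_mk, Prod.fst_add, Prod.snd_add, Prod.mk.injEq, true_and, map_add]
  ring

theorem tg_eq (m n : Fin 3) : tg T9 ⟨(m : ℕ) + (n : ℕ), (n : ℕ) - (m : ℕ)⟩ = wd (tl m n) :=
  Equiv.ext (Ad.ext (ad_tg _) (ad_wd _) fun i => by
    rw [wd_apply (tl_ne m n)]; revert m n i; decide +kernel)

theorem ub_eq : ub 1 = Jp (ng a1) * Jp a0 :=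
  Equiv.ext (Ad.ext (ad_ub _) (fun w w' => by simp only [Equiv.Perm.mul_apply, ad_Jp _ _ _]) fun i => by
    rw [Equiv.Perm.mul_apply, Jp_apply (by decide), Jp_apply (by decide)]; revert i; decide +kernel)

theorem Jp_inj {x y : V} (hx : dot x x ≠ 0) (hy : dot y y ≠ 0) (h : Jp x = Jp y) : x = y :=
  Jf_inj fun w => by rw [← Jp_apply hx, ← Jp_apply hy, h]

theorem Cn.uniq {g : Equiv.Perm W} {x y y' : V} (hy : Ro y) (hy' : Ro y') (a : Cn g x y) (b : Cn g x y') : y = y' :=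
  Jp_inj hy.ne hy'.ne (a.conj.symm.trans b.conj)

/-- what is used of the group on `W` -/
structure Hy (G : Subgroup (Equiv.Perm W)) : Prop where
  add : ∀ g ∈ G, Ad g
  sim : ∀ g ∈ G, (∀ w w', bf T9 (g w) (g w') = bf T9 w w') ∨ ∀ w w', bf T9 (g w) (g w') = -bf T9 w w'
  r0 : Jp a0 ∈ G
  r1 : Jp a1 ∈ G
  pel : ∀ g ∈ G, PL g → g ^ 3 = 1 → ∃ b, T9.σ b = b ∧ g = ub b

/-- a closed set of roots containing `a0`, `a1` and no `A₂` orthogonal to them -/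
structure Cl (R : V → Prop) : Prop where
  ro : ∀ x, R x → Ro x
  ng : ∀ x, R x → R (ng x)
  rf : ∀ x y, R x → R y → R (rf x y)
  r0 : R a0
  r1 : R a1
  no : ∀ x y, R x → R y → pL x → pL y → dot x y = 1 → y ≠ H90.Q3.ng x → x.x3 = 0

theorem Cl.sh {R : V → Prop} (h : Cl R) {l : List V} (hl : ∀ a ∈ l, R a) {y : V} (hy : R y) : R (sh l y) := by
  induction l with
  | nil => exact hy
  | cons a l ih => exact h.rf _ _ (hl a List.mem_cons_self) (ih fun b hb => hl b (List.mem_cons_of_mem _ hb))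

/-- `R` is the set of roots with `P` -/
def Eqv (R P : V → Prop) : Prop := ∀ x, R x ↔ Ro x ∧ P x

/-- `y` has the Gram matrix of `B` -/
def Gm (B y : Fin 4 → V) : Prop :=
  ∀ i j, dot (y i) (y j) = dot (B i) (B j) ∧ (i ≠ j → y i ≠ y j ∧ y i ≠ ng (y j))

/-! ### Roots -/

def JobCA : Prop := ∀ R, Cl R → (∃ x, R x ∧ ¬ pL x) → ∃ m n : Fin 3, R (sh (tl m n) b2)

def JobCB : Prop := ∀ R, Cl R → R b2 → (∀ x, R x → pD32 x) ∨ ∃ l : List V, (∀ a ∈ l, a ∈ NL) ∧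
  ∃ P, (P = pA4 ∨ P = pA41 ∨ P = pD5 ∨ P = pD4) ∧ Eqv (fun x => R (sh l x)) P

def JobU : Prop := ∀ R, Cl R → R a2 → (R a3 → R a4 → Eqv R pD5) ∧ (R a3 → R ee → Eqv R pA41) ∧
  (R a3 → (∀ x, R x → pD5 x) → ¬ R a4 → Eqv R pA4) ∧ (R b3 → (∀ x, R x → pD5 x) → ¬ R a3 → Eqv R pD4)

def JobNA : Prop := ∀ P, (P = pA4 ∨ P = pA41 ∨ P = pD5) → ∀ y : Fin 4 → V, (∀ i, Ro (y i) ∧ P (y i)) → Gm bA y →
  ∃ l : List V, (∀ a ∈ l, Ro a ∧ P a) ∧ ((∀ i, sh l (y i) = bA i) ∨ ∀ i, sh l (y i) = ng (bA i))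

def JobND : Prop := ∀ y : Fin 4 → V, (∀ i, Ro (y i) ∧ pD4 (y i)) → Gm bD y →
  ∃ l : List V, (∀ a ∈ l, Ro a ∧ pD4 a) ∧ ∃ m : Fin 3,
    (∀ i, sh l (y i) = sh (tl m m) (bD i)) ∨ ∀ i, sh l (y i) = sh (tl m m ++ [a3, a4]) (bD i)

/-! ### Groups on `W` -/

def JobHy : Prop := ∀ G, Sp T9 3 G → (∀ s, sdW T9 (SemidirectProduct.inl (t2 s)) ∈ G) → Hy G ∧ Cl (Rt G)

/-- `G` permutes its reflections -/
def CJ : Prop := ∀ G, Hy G → ∀ g ∈ G, ∀ x, Rt G x → ∃ y, Rt G y ∧ Cn g x y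
def JobCj : Prop := CJ

/-- the centralizer of four reflections -/
def SCH : Prop := ∀ g : Equiv.Perm W, Ad g → ((∀ i, Cn g (bA i) (bA i)) ∨ ∀ i, Cn g (bD i) (bD i)) → g = 1 ∨ g = mo
def JobSch : Prop := SCH

def JobSt : Prop := CJ → ∀ G, Hy G → ((∃ g ∈ G, ¬ PL g) → ∃ x, Rt G x ∧ ¬ pL x) ∧
  (Rt G b2 → (∀ x, Rt G x → pD32 x) → St1 T9 G)

def JobDA : Prop := CJ → SCH → JobNA → ∀ G P, Hy G → (P = pA4 ∨ P = pA41 ∨ P = pD5) → Eqv (Rt G) P → G = GG P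

def JobDD : Prop := CJ → SCH → JobND → ∀ G, Hy G → Eqv (Rt G) pD4 →
  (E1 ∈ G → G = GE) ∧ ((∀ m : Fin 3, E1 ∉ cW (wd (tl m m)) G) → G = GG pD4)

def JobTh : Prop := ∀ a ∈ NL, ∃ θ : MulAut (Co T9), ∀ u ∈ sQ T9, θ u ∈ sQ T9 ∧ (θ u).π = Jp a u.π

/-! ### Models -/

section Mod
variable {Γ : Type} [Group Γ] (ι : Co T9 →* Γ)

/-- `n` normalizes `Q` and induces `g` on `W` -/
def Lf (n : Γ) (g : W → W) : Prop := ∀ u ∈ sQ T9, ∃ u' ∈ sQ T9, n * ι u * n⁻¹ = ι u' ∧ u'.π = g u.π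

/-- `n` normalizes `A` and moves `Z` -/
def La (n : Γ) : Prop := (∀ u ∈ sA T9, ∃ u' ∈ sA T9, n * ι u * n⁻¹ = ι u') ∧
  ∃ u', u' ∉ sZ T9 ∧ n * ι zz * n⁻¹ = ι u'

end Mod

def JobPull : Prop := ∀ (Γ : Type) [Group Γ] [Finite Γ] (ι : Co T9 →* Γ), Function.Injective ι →
  ∀ M : Subgroup Γ, (∀ u, ι u ∈ M) → ¬ 3 ^ 7 ∣ Nat.card M →
  ∃ E : FusionSystem (⊤ : Subgroup (Co T9)), E.IsSaturated 3 ∧ E.IsRealizable 3 ∧
    (∀ g : Equiv.Perm W, g ∈ gW T9 (aY E (sQ T9)) ↔ ∃ n ∈ M, Lf ι n g) ∧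
    ((∃ n ∈ M, La ι n) → ∃ α ∈ aY E (sA T9), ¬ PZ T9 α)

/-- the centralizer of `Q` in the stabiliser of `v` -/
def K1 : Prop := ∀ c : Co0, (∀ u ∈ sQ T9, c * io u = io u * c) → c • vv = vv → c • vw = vw ∧ c • v4 = v4
def JobK1 : Prop := K1

/-- the explicit elements -/
structure Dat : Prop where
  l0 : Lf io (nn 0) (Jp a2)
  l1 : Lf io (nn 1) (Jp a3)
  l2 : Lf io (nn 2) (Jp a4)
  l3 : Lf io (nn 3) (Jp ee)
  l4 : Lf io (nn 4) (Jp b3)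
  l5 : La io (nn 5)
  s : ∀ u, io u • vv = vv ∧ io u • vw = vw ∧ io u • v3 = v3 ∧ io u • v4 = v4
  f0 : nn 0 • vv = vv ∧ nn 0 • vw = vw ∧ nn 0 • v3 = v3 ∧ nn 0 • v4 = v4
  f1 : nn 1 • vv = vv ∧ nn 1 • vw = vw ∧ nn 1 • v4 ≠ v3 ∧ nn 1 • v4 ≠ v4
  f2 : nn 2 • vv = vv ∧ nn 2 • vw ≠ vw
  f3 : nn 3 • vv = vw ∧ nn 3 • vw = vv
  f4 : nn 4 • vv = vv ∧ nn 4 • v3 = v3 ∧ nn 4 • v4 = v4
  f5 : nn 5 • vv = vv ∧ nn 5 • vw = vw ∧ nn 5 • v3 = v3 ∧ nn 5 • v4 = v4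
  f12 : (nn 1 * nn 2) • v3 = v4 ∧ (nn 1 * nn 2) • v4 = v3 ∧ v3 ≠ v4
def JobDat : Prop := Dat

def JobCard : Prop := ¬ 3 ^ 7 ∣ Nat.card (St1 vv) ∧ ¬ 3 ^ 7 ∣ Nat.card (Sw vv vw)

/-- two elements with the same action on `W` -/
def KK : Prop := ∀ (n n' : Co0) (g : Equiv.Perm W), Lf io n g → Lf io n' g → n • vv = vv → n' • vv = vv →
  n • vw = n' • vw ∧ n • v4 = n' • v4
def JobKK : Prop := In T9 → K1 → Dat → KK

end H90.Q3
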