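import Cfsg.Agent.H42.IVSpec
import Cfsg.Agent.H99.CD

/-! The Chermak-Delgado bound in a group without abelian normal subgroups. -/

set_option autoImplicit false

namespace H90.IvCD

open Subgroup Cfsg

universe u

theorem jobCD : H42.IV.JobCD.{u} := by
  intro H _ _ hM X
  classical
  obtain ⟨M, hMl, hmin⟩ := (wellFounded_lt (α := Subgroup H)).has_min
    {Q : Subgroup H | IsCentralizerLarge Q} H99.exists_isCentralizerLarge
  have hle : ∀ Q : Subgroup H, IsCentralizerLarge Q → M ≤ Q := by
    intro Q hQ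
    have h1 : IsCentralizerLarge (M ⊓ Q) := H99.cd_inf hMl hQ
    have h2 : ¬ (M ⊓ Q < M) := hmin _ h1
    have h3 : M ⊓ Q = M := by
      by_contra hne
      exact h2 (lt_of_le_of_ne inf_le_left hne)
    exact inf_eq_left.1 h3
  have hN : M.Normal := by
    refine ⟨fun n hn g => ?_⟩
    have := hle _ (H99.cd_map_equiv hMl (MulAut.conj g⁻¹)) hn
    obtain ⟨m, hm, e⟩ := this
    have e' : g⁻¹ * m * g = n := by simpa using e
    have : g * n * g⁻¹ = m := by rw [← e']; group
    rw [this]; exact hm
  have hC : M ≤ centralizer (M : Set H) := hle _ (H99.cd_centralizer hMl)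
  have hA : IsMulCommutative M := by
    refine ⟨⟨fun a b => Subtype.ext ?_⟩⟩
    exact (mem_centralizer_iff.1 (hC b.2) a a.2)
  have hb : M = ⊥ := hM M hN hA
  have h1 := H99.cdm_le X
  rw [← (H99.isCentralizerLarge_iff M).1 hMl, hb] at h1
  have h2 : H99.cdm (⊥ : Subgroup H) ≤ Nat.card H := by
    unfold H99.cdm
    rw [card_bot, one_mul]
    exact Subgroup.card_le_card_group _
  exact h1.trans h2

end H90.IvCD
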