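import Cfsg.Agent.Base

/-! Fisher's inequality. -/

set_option autoImplicit false

namespace H90

/-- Fisher's inequality: if every point of `S` lies on `r` blocks of `T`, two distinct points lie on
`l` common blocks, and `l < r`, then `|S| ≤ |T|`. -/
theorem fisher {X B : Type*} (S : Finset X) (T : Finset B) (I : X → B → Prop)
    [∀ x b, Decidable (I x b)] (r l : ℕ) (hr : ∀ x ∈ S, (T.filter (fun b => I x b)).card = r)
    (hl : ∀ x ∈ S, ∀ y ∈ S, x ≠ y → (T.filter (fun b => I x b ∧ I y b)).card = l) (hlt : l < r) :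
    S.card ≤ T.card := by
  classical
  let v : S → T → ℚ := fun x b => if I x b then 1 else 0
  have hvv : ∀ x y : S, ∑ b : T, v x b * v y b = (if x = y then (r - l : ℚ) else 0) + l := by
    intro x y
    have h1 : ∑ b : T, v x b * v y b = ((T.filter (fun b => I x b ∧ I y b)).card : ℚ) := by
      rw [Finset.card_filter, ← Finset.sum_coe_sort T]
      push_cast
      apply Finset.sum_congr rfl
      intro b _
      by_cases h1 : I x b <;> by_cases h2 : I y b <;> simp [v, h1, h2]
    rw [h1]
    split_ifs with h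
    · subst h
      simp only [and_self]
      rw [hr _ x.2]; ring
    · rw [hl _ x.2 _ y.2 (fun h' => h (Subtype.ext h'))]; ring
  have hli : LinearIndependent ℚ v := by
    rw [Fintype.linearIndependent_iff]
    intro c hc
    have h0 : ∑ b : T, (∑ x, c x * v x b) * (∑ y, c y * v y b) = 0 := by
      apply Finset.sum_eq_zero
      intro b _
      have := congrFun hc b
      simp only [Finset.sum_apply, Pi.smul_apply, smul_eq_mul, Pi.zero_apply] at this
      rw [this, mul_zero]
    have h1 : ∑ b : T, (∑ x, c x * v x b) * (∑ y, c y * v y b)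
        = (r - l : ℚ) * ∑ x, c x ^ 2 + l * (∑ x, c x) ^ 2 := by
      simp only [Finset.sum_mul_sum]
      rw [Finset.sum_comm]
      have : ∀ x : S, ∑ b : T, ∑ y, c x * v x b * (c y * v y b)
          = (r - l : ℚ) * c x ^ 2 + l * (c x * ∑ y, c y) := by
        intro x
        rw [Finset.sum_comm]
        have : ∀ y : S, ∑ b : T, c x * v x b * (c y * v y b)
            = (if x = y then (r - l : ℚ) * (c x * c y) else 0) + l * (c x * c y) := by
          intro y
          rw [show ∑ b : T, c x * v x b * (c y * v y b) = c x * c y * ∑ b : T, v x b * v y b by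
            rw [Finset.mul_sum]; apply Finset.sum_congr rfl; intro b _; ring, hvv]
          split_ifs <;> ring
        simp only [this, Finset.sum_add_distrib, Finset.sum_ite_eq, Finset.mem_univ, if_true,
          ← Finset.mul_sum]
        ring
      simp only [this]
      simp only [Finset.sum_add_distrib, ← Finset.mul_sum, ← Finset.sum_mul]
      ring
    rw [h1] at h0
    have h2 : (0 : ℚ) < r - l := by
      have : (l : ℚ) < r := by exact_mod_cast hlt
      linarith
    have h3 : (0 : ℚ) ≤ ∑ x, c x ^ 2 := Finset.sum_nonneg fun x _ => sq_nonneg _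
    have h4 : (0 : ℚ) ≤ l * (∑ x, c x) ^ 2 := by positivity
    have h5 : ∑ x, c x ^ 2 = 0 := by nlinarith
    intro x
    have := (Finset.sum_eq_zero_iff_of_nonneg (fun x _ => sq_nonneg (c x))).1 h5 x (Finset.mem_univ _)
    exact pow_eq_zero_iff (two_ne_zero) |>.1 this
  simpa using hli.fintype_card_le_finrank

/-- Fisher's inequality for a group action: `I` an invariant incidence relation, `L` a set of group
elements preserving `T` and doubly transitive on `S`. -/
theorem fisher_action {G X B : Type*} [Group G] [MulAction G X] [MulAction G B] (S : Finset X)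
    (T : Finset B) (I : X → B → Prop) (hI : ∀ (g : G) x b, I (g • x) (g • b) ↔ I x b)
    (htr : ∀ x ∈ S, ∀ y ∈ S, ∀ x' ∈ S, ∀ y' ∈ S, x ≠ y → x' ≠ y' →
      ∃ g : G, g • x = x' ∧ g • y = y' ∧ ∀ b, g • b ∈ T ↔ b ∈ T)
    {x₀ y₀ : X} (hx₀ : x₀ ∈ S) (hy₀ : y₀ ∈ S) {b₀ : B} (hb₀ : b₀ ∈ T) (h1 : I x₀ b₀)
    (h2 : ¬ I y₀ b₀) : S.card ≤ T.card := by
  classical
  have hne : x₀ ≠ y₀ := by rintro rfl; exact h2 h1
  apply fisher S T I (T.filter (fun b => I x₀ b)).card (T.filter (fun b => I x₀ b ∧ I y₀ b)).card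
  · intro x hx
    obtain ⟨g, hg, hT⟩ : ∃ g : G, g • x = x₀ ∧ ∀ b, g • b ∈ T ↔ b ∈ T := by
      by_cases h : x = x₀
      · exact ⟨1, by simp [h], by simp⟩
      · obtain ⟨g, hg, -, hT⟩ := htr x hx x₀ hx₀ x₀ hx₀ y₀ hy₀ h hne
        exact ⟨g, hg, hT⟩
    apply Finset.card_bijective (MulAction.toPerm g) (MulAction.toPerm g).bijective
    intro b
    simp [← hg, hI, hT]
  · intro x hx y hy hxy
    obtain ⟨g, hg, hg', hT⟩ := htr x hx y hy x₀ hx₀ y₀ hy₀ hxy hne
    apply Finset.card_bijective (MulAction.toPerm g) (MulAction.toPerm g).bijective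
    intro b
    simp [← hg, ← hg', hI, hT]
  · apply Finset.card_lt_card
    refine ⟨fun b hb => ?_, fun h => ?_⟩
    · simp only [Finset.mem_filter] at hb ⊢
      exact ⟨hb.1, hb.2.1⟩
    · have := h (Finset.mem_filter.2 ⟨hb₀, h1⟩)
      exact h2 (Finset.mem_filter.1 this).2.2

end H90
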