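import Cfsg.Agent.Base
import Cfsg.Agent.H2.PrimeCore

/-! Prime graphs: edges, fibre products, and extensions by a module with the same prime graph. -/

set_option autoImplicit false
open Cfsg

namespace H90.GK

universe u

/-- `p` and `q` are joined in the prime graph. -/
def Edge (G : Type*) [Group G] (p q : ℕ) : Prop := ∃ g : G, orderOf g = p * q

/-- Same prime graph. -/
def Same (G : Type*) (H : Type*) [Group G] [Group H] : Prop :=
  (∀ p : ℕ, p.Prime → (p ∣ Nat.card G ↔ p ∣ Nat.card H)) ∧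
    (∀ p q : ℕ, p.Prime → q.Prime → p ≠ q → (Edge G p q ↔ Edge H p q))

variable {G : Type*} [Group G] {H : Type*} [Group H]

theorem Edge.symm {p q : ℕ} (h : Edge G p q) : Edge G q p := by
  obtain ⟨g, hg⟩ := h
  exact ⟨g, by rw [hg, mul_comm]⟩

theorem exists_orderOf_eq_of_dvd [Finite G] {g : G} {n : ℕ} (h : n ∣ orderOf g) :
    ∃ k : ℕ, orderOf (g ^ k) = n := by
  have h0 : orderOf g ≠ 0 := (orderOf_pos g).ne'
  exact ⟨orderOf g / n, orderOf_pow_orderOf_div h0 h⟩

theorem edge_of_dvd [Finite G] {g : G} {p q : ℕ} (h : p * q ∣ orderOf g) : Edge G p q := by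
  obtain ⟨k, hk⟩ := exists_orderOf_eq_of_dvd h
  exact ⟨_, hk⟩

theorem edge_of_map [Finite G] (f : G →* H) {g : G} {p q : ℕ} (h : p * q ∣ orderOf (f g)) :
    Edge G p q :=
  edge_of_dvd (h.trans (orderOf_map_dvd f g))

theorem Edge.of_surj [Finite G] (f : G →* H) (hf : Function.Surjective f) {p q : ℕ}
    (h : Edge H p q) : Edge G p q := by
  obtain ⟨x, hx⟩ := h
  obtain ⟨g, rfl⟩ := hf x
  exact edge_of_map f hx.symm.dvd

theorem Edge.of_inj (f : G →* H) (hf : Function.Injective f) {p q : ℕ}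
    (h : Edge G p q) : Edge H p q := by
  obtain ⟨x, hx⟩ := h
  exact ⟨f x, by rw [orderOf_injective f hf, hx]⟩

theorem edge_of_commute {x y : G} {p q : ℕ} (hp : p.Prime) (hq : q.Prime) (hpq : p ≠ q)
    (hx : orderOf x = p) (hy : orderOf y = q) (h : Commute x y) : Edge G p q :=
  ⟨x * y, by
    rw [h.orderOf_mul_eq_mul_orderOf_of_coprime, hx, hy]
    rw [hx, hy]; exact (Nat.coprime_primes hp hq).2 hpq⟩

theorem orderOf_eq_prime' {x : G} {p : ℕ} (hp : p.Prime) (h : x ^ p = 1) (h1 : x ≠ 1) :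
    orderOf x = p := by
  haveI := Fact.mk hp
  exact orderOf_eq_prime h h1

theorem Same.symm (h : Same G H) : Same H G :=
  ⟨fun p hp => (h.1 p hp).symm, fun p q hp hq hpq => (h.2 p q hp hq hpq).symm⟩

theorem Same.trans {K : Type*} [Group K] (h : Same G H) (h' : Same H K) : Same G K :=
  ⟨fun p hp => (h.1 p hp).trans (h'.1 p hp),
    fun p q hp hq hpq => (h.2 p q hp hq hpq).trans (h'.2 p q hp hq hpq)⟩

theorem dvd_card_iff [Finite G] {p : ℕ} (hp : p.Prime) :
    p ∣ Nat.card G ↔ ∃ g : G, orderOf g = p := by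
  haveI := Fact.mk hp
  exact ⟨fun h => exists_prime_orderOf_dvd_card' p h,
    fun ⟨g, hg⟩ => hg ▸ orderOf_dvd_natCard g⟩

theorem same_of_range [Finite G] [Finite H]
    (h : Set.range (orderOf : H → ℕ) = Set.range (orderOf : G → ℕ)) : Same G H := by
  have key : ∀ n, (∃ g : G, orderOf g = n) ↔ ∃ g : H, orderOf g = n := fun n => by
    change n ∈ Set.range (orderOf : G → ℕ) ↔ n ∈ Set.range (orderOf : H → ℕ)
    rw [h]
  exact ⟨fun p hp => by rw [dvd_card_iff hp, dvd_card_iff hp, key],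
    fun p q _ _ _ => key _⟩

/-- The divisors of a product of two primes. -/
theorem dvd_mul_primes {p q d : ℕ} (hp : p.Prime) (hq : q.Prime) (h : d ∣ p * q) :
    d = 1 ∨ d = p ∨ d = q ∨ d = p * q := by
  obtain ⟨a, b, ha, hb, rfl⟩ := Nat.dvd_mul.1 h
  rcases (Nat.dvd_prime hp).1 ha with rfl | rfl <;> rcases (Nat.dvd_prime hq).1 hb with rfl | rfl
  all_goals simp

section Fib

variable {U : Type*} [Group U] (X : Subgroup G) [X.Normal] (f : U →* G ⧸ X)

/-- The fibre product of `U` and `G` over `G ⧸ X`. -/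
def fib : Subgroup (U × G) :=
  (f.comp (MonoidHom.fst U G)).eqLocus ((QuotientGroup.mk' X).comp (MonoidHom.snd U G))

variable {X f}

theorem mem_fib {z : U × G} : z ∈ fib X f ↔ f z.1 = (z.2 : G ⧸ X) := Iff.rfl

theorem same_fib [Finite G] [Finite U] (hf : Function.Surjective f)
    (h1 : ∀ p : ℕ, p.Prime → p ∣ Nat.card U → p ∣ Nat.card G)
    (h2 : ∀ p q : ℕ, p.Prime → q.Prime → p ≠ q → Edge U p q → Edge G p q)
    (h3 : ∀ p q : ℕ, p.Prime → q.Prime → p ≠ q → (∃ u : U, f u = 1 ∧ orderOf u = p) →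
      q ∣ Nat.card X → Edge G p q) : Same G (fib X f) := by
  let s : fib X f →* G := (MonoidHom.snd U G).comp (fib X f).subtype
  have hs : Function.Surjective s := fun g => by
    obtain ⟨u, hu⟩ := hf (g : G ⧸ X)
    exact ⟨⟨(u, g), hu⟩, rfl⟩
  have aux : ∀ p q : ℕ, p.Prime → q.Prime → p ≠ q → ∀ u : U, ∀ g : G, f u = (g : G ⧸ X) →
      orderOf u = p → orderOf g = q → Edge G p q := by
    intro p q hp hq hpq u g hug hu hg
    have hcop : Nat.Coprime p q := (Nat.coprime_primes hp hq).2 hpq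
    refine h3 p q hp hq hpq ⟨u ^ q, ?_, ?_⟩ ?_
    · rw [map_pow, hug, ← QuotientGroup.mk_pow, ← hg, pow_orderOf_eq_one]; rfl
    · rw [← hu] at hcop ⊢; exact hcop.orderOf_pow
    · have hX : g ^ p ∈ X := by
        rw [← QuotientGroup.eq_one_iff, QuotientGroup.mk_pow, ← hug, ← map_pow, ← hu,
          pow_orderOf_eq_one, map_one]
      have ho : orderOf (g ^ p) = q := by
        rw [← hg] at hcop ⊢; exact hcop.symm.orderOf_pow
      rw [← ho]
      exact Subgroup.orderOf_dvd_natCard X hX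
  refine ⟨fun p hp => ⟨fun h => h.trans (Subgroup.card_dvd_of_surjective s hs), fun h => ?_⟩,
    fun p q hp hq hpq => ⟨Edge.of_surj s hs, ?_⟩⟩
  · obtain ⟨⟨⟨u, g⟩, hz⟩, ho⟩ := (dvd_card_iff hp).1 h
    rw [← Subgroup.orderOf_coe, Prod.orderOf_mk] at ho
    have hu : orderOf u ∣ p := ho ▸ Nat.dvd_lcm_left _ _
    have hg : orderOf g ∣ p := ho ▸ Nat.dvd_lcm_right _ _
    rcases (Nat.dvd_prime hp).1 hg with hg | hg
    · rcases (Nat.dvd_prime hp).1 hu with hu | hu
      · rw [hu, hg] at ho; exact absurd ho.symm hp.ne_one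
      · exact h1 p hp (hu ▸ orderOf_dvd_natCard u)
    · exact hg ▸ orderOf_dvd_natCard g
  · rintro ⟨⟨⟨u, g⟩, hz⟩, ho⟩
    rw [← Subgroup.orderOf_coe, Prod.orderOf_mk] at ho
    have hu : orderOf u ∣ p * q := ho ▸ Nat.dvd_lcm_left _ _
    have hg : orderOf g ∣ p * q := ho ▸ Nat.dvd_lcm_right _ _
    have hp1 := hp.one_lt
    have hq1 := hq.one_lt
    rcases dvd_mul_primes hp hq hg with hg | hg | hg | hg
    · rw [hg, Nat.lcm_one_right] at ho
      exact h2 p q hp hq hpq ⟨u, ho⟩
    · rcases dvd_mul_primes hp hq hu with hu | hu | hu | hu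
      · rw [hu, hg, Nat.lcm_one_left] at ho; nlinarith
      · rw [hu, hg, Nat.lcm_self] at ho; nlinarith
      · exact (aux q p hq hp hpq.symm u g hz hu hg).symm
      · exact h2 p q hp hq hpq ⟨u, hu⟩
    · rcases dvd_mul_primes hp hq hu with hu | hu | hu | hu
      · rw [hu, hg, Nat.lcm_one_left] at ho; nlinarith
      · exact aux p q hp hq hpq u g hz hu hg
      · rw [hu, hg, Nat.lcm_self] at ho; nlinarith
      · exact h2 p q hp hq hpq ⟨u, hu⟩
    · exact ⟨g, hg⟩

end Fib

section Mod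

variable {A W : Type*} [Group A] [CommGroup W] (φ : A →* MulAut W)

theorem inl_pow_eq_one_of_right {t : W ⋊[φ] A} (h : t.right = 1) :
    t = SemidirectProduct.inl t.left := by
  ext <;> simp [h]

/-- Edges of `W ⋊ A` for a `2`-group `W`. -/
theorem edge_of_sd [Finite A] [Finite W] (hW : IsPGroup 2 W) (ι : A →* G)
    (hι : Function.Injective ι)
    (ha : ∀ a : A, ∀ q : ℕ, q.Prime → q ≠ 2 → orderOf a = q → ¬ Edge G 2 q →
      ∀ w, φ a w = w → w = 1) {p q : ℕ} (hp : p.Prime) (hq : q.Prime) (hpq : p ≠ q)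
    (h : Edge (W ⋊[φ] A) p q) : Edge G p q := by
  have hcop : Nat.Coprime p q := (Nat.coprime_primes hp hq).2 hpq
  -- an element of odd prime order has right component of the same order
  have odd : ∀ r : ℕ, r.Prime → r ≠ 2 → ∀ y : W ⋊[φ] A, orderOf y = r → orderOf y.right = r := by
    intro r hr hr2 y hy
    refine orderOf_eq_prime' hr ?_ ?_
    · have : SemidirectProduct.rightHom (y ^ r) = 1 := by rw [← hy, pow_orderOf_eq_one, map_one]
      rwa [map_pow] at this
    · intro h1
      have e := inl_pow_eq_one_of_right φ h1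
      rw [e, orderOf_injective _ SemidirectProduct.inl_injective] at hy
      obtain ⟨k, hk⟩ := hW y.left
      have := orderOf_dvd_of_pow_eq_one hk
      rw [hy] at this
      exact hr2 ((Nat.prime_dvd_prime_iff_eq hr Nat.prime_two).1 (hr.dvd_of_dvd_pow this))
  have two : ∀ r : ℕ, r.Prime → r ≠ 2 → ∀ x y : W ⋊[φ] A, orderOf x = 2 → orderOf y = r →
      Commute x y → Edge G 2 r := by
    intro r hr hr2 x y hx hy hc
    by_contra hne
    have hyr := odd r hr hr2 y hy
    by_cases h1 : x.right = 1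
    · have e := inl_pow_eq_one_of_right φ h1
      have hl := congrArg SemidirectProduct.left hc.eq
      simp only [SemidirectProduct.mul_left, h1, map_one, MulAut.one_apply] at hl
      have := ha y.right r hr hr2 hyr hne x.left (by
        rw [mul_comm x.left] at hl
        exact (mul_left_cancel hl).symm)
      rw [e, this, map_one, orderOf_one] at hx
      exact absurd hx (by norm_num)
    · have hx2 : orderOf x.right = 2 := by
        refine orderOf_eq_prime' Nat.prime_two ?_ h1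
        have : SemidirectProduct.rightHom (x ^ 2) = 1 := by rw [← hx, pow_orderOf_eq_one, map_one]
        rwa [map_pow] at this
      exact hne ((edge_of_commute Nat.prime_two hr hr2.symm hx2 hyr
        (hc.map SemidirectProduct.rightHom)).of_inj ι hι)
  obtain ⟨t, ht⟩ := h
  have hx : orderOf (t ^ q) = p := by
    rw [orderOf_pow' _ hq.ne_zero, ht, Nat.gcd_mul_left_left, Nat.mul_div_cancel _ hq.pos]
  have hy : orderOf (t ^ p) = q := by
    rw [orderOf_pow' _ hp.ne_zero, ht, Nat.gcd_mul_right_left, Nat.mul_div_cancel_left _ hp.pos]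
  have hc : Commute (t ^ q) (t ^ p) := (Commute.refl t).pow_pow _ _
  by_cases hp2 : p = 2
  · subst hp2
    exact two q hq hpq.symm _ _ hx hy hc
  by_cases hq2 : q = 2
  · subst hq2
    exact (two p hp hpq _ _ hy hx hc.symm).symm
  exact (edge_of_commute hp hq hpq (odd p hp hp2 _ hx) (odd q hq hq2 _ hy)
    (hc.map SemidirectProduct.rightHom)).of_inj ι hι

end Mod

/-- From a module for a supplement `A` of `X` to a group with the same prime graph and a nontrivial
abelian normal subgroup. -/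
theorem exists_same_of_module {G : Type u} [Group G] [Finite G] (X : Subgroup G) [X.Normal]
    (A : Subgroup G) (hAX : A ⊔ X = ⊤) {W : Type u} [CommGroup W] [Finite W] [Nontrivial W]
    (hW : IsPGroup 2 W) (φ : A →* MulAut W) (h2 : 2 ∣ Nat.card X)
    (hX : ∀ q : ℕ, q.Prime → q ≠ 2 → q ∣ Nat.card X → Edge G 2 q)
    (ha : ∀ a : A, ∀ q : ℕ, q.Prime → q ≠ 2 → orderOf a = q → ¬ Edge G 2 q →
      ∀ w, φ a w = w → w = 1)
    (hb : ∀ r q : ℕ, r.Prime → r ≠ 2 → q.Prime → r ≠ q → q ∣ Nat.card X → ¬ Edge G r q →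
      ∀ d : A, (d : G) ∈ X → (∃ k, d ^ r ^ k = 1) → φ d = 1) :
    ∃ (H : Type u) (_ : Group H) (_ : Finite H), Same G H ∧
      ∃ N : Subgroup H, N.Normal ∧ N ≠ ⊥ ∧ IsMulCommutative N := by
  let ψ₁ : W ⋊[φ] A →* W ⋊[MonoidHom.id (MulAut W)] (MulAut W) :=
    SemidirectProduct.map (MonoidHom.id W) φ (fun g => rfl)
  let ψ₂ : W ⋊[φ] A →* G ⧸ X :=
    (QuotientGroup.mk' X).comp (A.subtype.comp SemidirectProduct.rightHom)
  let ψ := ψ₁.prod ψ₂
  haveI : Finite (W ⋊[φ] A) := Finite.of_equiv _ SemidirectProduct.equivProd.symm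
  haveI : Finite ψ.range := Finite.of_surjective _ ψ.rangeRestrict_surjective
  let f : ψ.range →* G ⧸ X := (MonoidHom.snd _ _).comp ψ.range.subtype
  have hf : Function.Surjective f := by
    intro x
    obtain ⟨g, rfl⟩ := QuotientGroup.mk_surjective x
    have hg : g ∈ A ⊔ X := hAX ▸ Subgroup.mem_top g
    rw [← SetLike.mem_coe, Subgroup.mul_normal] at hg
    obtain ⟨a, ha, x, hx, rfl⟩ := hg
    refine ⟨⟨ψ (SemidirectProduct.inr ⟨a, ha⟩), _, rfl⟩, ?_⟩
    change ((a : G) : G ⧸ X) = ((a * x : G) : G ⧸ X)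
    rw [QuotientGroup.eq]; simpa using hx
  have hsame : Same G (fib X f) := by
    refine same_fib hf (fun p hp h => ?_) (fun p q hp hq hpq h => ?_) (fun p q hp hq hpq h hqX => ?_)
    · have h' := h.trans (Subgroup.card_dvd_of_surjective ψ.rangeRestrict
        ψ.rangeRestrict_surjective)
      rw [SemidirectProduct.card] at h'
      rcases (Nat.Prime.dvd_mul hp).1 h' with h' | h'
      · obtain ⟨k, hk⟩ := hW.exists_card_eq
        rw [hk] at h'
        rw [(Nat.prime_dvd_prime_iff_eq hp Nat.prime_two).1 (hp.dvd_of_dvd_pow h')]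
        exact h2.trans (Subgroup.card_subgroup_dvd_card X)
      · exact h'.trans (Subgroup.card_subgroup_dvd_card A)
    · exact edge_of_sd φ hW A.subtype A.subtype_injective ha hp hq hpq
        (h.of_surj ψ.rangeRestrict ψ.rangeRestrict_surjective)
    · by_cases hp2 : p = 2
      · subst hp2; exact hX q hq hpq.symm hqX
      by_contra hne
      obtain ⟨⟨_, t, rfl⟩, hu, ho⟩ := h
      rw [← Subgroup.orderOf_coe] at ho
      change orderOf (ψ t) = p at ho
      have hd : ((t.right : A) : G) ∈ X := (QuotientGroup.eq_one_iff _).1 hu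
      haveI := Fact.mk hp
      obtain ⟨k, m, hm, hkm⟩ := Nat.exists_eq_pow_mul_and_not_dvd (orderOf_pos t).ne' p hp.ne_one
      have ht : (t ^ m) ^ p ^ k = 1 := by rw [← pow_mul, mul_comm, ← hkm, pow_orderOf_eq_one]
      have hd' : (((t ^ m).right : A) : G) ∈ X := by
        have : (t ^ m).right = t.right ^ m := map_pow SemidirectProduct.rightHom t m
        rw [this, Subgroup.coe_pow]; exact X.pow_mem hd m
      have hφ : φ (t ^ m).right = 1 := hb p q hp hp2 hq hpq hqX hne _ hd' ⟨k, by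
        have := congrArg SemidirectProduct.rightHom ht
        rwa [map_pow, map_one] at this⟩
      have h1 : ψ₁ (t ^ m) = SemidirectProduct.inl (t ^ m).left := by
        ext
        · rfl
        · change φ (t ^ m).right _ = _
          rw [hφ]; rfl
      have h1' : (t ^ m).left = 1 := by
        have e : (SemidirectProduct.inl ((t ^ m).left ^ p ^ k) :
            W ⋊[MonoidHom.id (MulAut W)] (MulAut W)) = 1 := by
          rw [map_pow, ← h1, ← map_pow, ht, map_one]
        rw [← map_one SemidirectProduct.inl, SemidirectProduct.inl_inj] at e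
        obtain ⟨j, hj⟩ := hW (t ^ m).left
        have hc : Nat.Coprime (p ^ k) (2 ^ j) :=
          Nat.Coprime.pow _ _ ((Nat.coprime_primes hp Nat.prime_two).2 hp2)
        exact orderOf_eq_one_iff.1 (Nat.eq_one_of_dvd_coprimes hc (orderOf_dvd_of_pow_eq_one e)
          (orderOf_dvd_of_pow_eq_one hj))
      have : ψ (t ^ m) = 1 := by
        refine Prod.ext ?_ ?_
        · change ψ₁ (t ^ m) = 1
          rw [h1, h1', map_one]
        · exact (QuotientGroup.eq_one_iff _).2 hd'
      rw [map_pow] at this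
      exact hm (ho ▸ orderOf_dvd_of_pow_eq_one this)
  let k : fib X f →* MulAut W × G :=
    ((SemidirectProduct.rightHom.comp ((MonoidHom.fst _ _).comp (ψ.range.subtype.comp
      (MonoidHom.fst _ _)))).prod (MonoidHom.snd _ _)).comp (fib X f).subtype
  refine ⟨fib X f, inferInstance, inferInstance, hsame, k.ker, inferInstance, ?_, ⟨⟨?_⟩⟩⟩
  · obtain ⟨w, hw⟩ := exists_ne (1 : W)
    intro hk
    have hm : ((⟨ψ (SemidirectProduct.inl w), _, rfl⟩ : ψ.range), (1 : G)) ∈ fib X f := rfl
    have : (⟨_, hm⟩ : fib X f) ∈ k.ker := by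
      refine Prod.ext ?_ rfl
      change φ 1 = 1
      exact map_one φ
    rw [hk, Subgroup.mem_bot] at this
    exact hw (congrArg (fun z : fib X f => z.1.1.1.1.left) this)
  · rintro ⟨⟨⟨⟨⟨x, x'⟩, hx⟩, g⟩, hz⟩, hk⟩ ⟨⟨⟨⟨⟨y, y'⟩, hy⟩, g'⟩, hz'⟩, hk'⟩
    have e1 : x.right = 1 := congrArg Prod.fst hk
    have e2 : g = 1 := congrArg Prod.snd hk
    have e3 : y.right = 1 := congrArg Prod.fst hk'
    have e4 : g' = 1 := congrArg Prod.snd hk'
    have e5 : x' = 1 := by subst e2; exact hz
    have e6 : y' = 1 := by subst e4; exact hz'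
    subst e2 e4 e5 e6
    refine Subtype.ext (Subtype.ext (Prod.ext (Subtype.ext (Prod.ext ?_ rfl)) rfl))
    change x * y = y * x
    rw [inl_pow_eq_one_of_right _ e1, inl_pow_eq_one_of_right _ e3, ← map_mul, ← map_mul, mul_comm]

end H90.GK
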