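import Cfsg.Agent.H90.GK1
import Cfsg.Agent.H2.MinNormal
import Cfsg.Agent.H22.HHSub
import Cfsg.Agent.H5.FrobCompl

/-! A normal subgroup of even order all of whose odd primes are joined to `2` in the prime graph
gives a group with the same prime graph and a nontrivial abelian normal subgroup. -/

set_option autoImplicit false
open Cfsg
open scoped commutatorElement

namespace H90.GK

universe u

/-- Coinduction from `K D` of a module on which `D` is made to act trivially. -/
theorem exists_coind {A V : Type u} [Group A] [Finite A] [CommGroup V] [Finite V] [Nontrivial V]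
    (hV : IsPGroup 2 V) (c : A →* MulAut V) (K D : Subgroup A) [hK : K.Normal] [hD : D.Normal]
    (hKD : ∀ z ∈ K, z ∈ D → c z = 1) :
    ∃ (W : Type u) (_ : CommGroup W) (_ : Finite W) (_ : Nontrivial W) (φ : A →* MulAut W),
      IsPGroup 2 W ∧ (∀ d ∈ D, φ d = 1) ∧
      ∀ a ∈ K, (∀ g v, c (g * a * g⁻¹) v = v → v = 1) → ∀ w, φ a w = w → w = 1 := by
  classical
  let W : Subgroup (A → V) :=
    { carrier := {f | (∀ k ∈ K, ∀ a, f (k * a) = c k (f a)) ∧ ∀ d ∈ D, ∀ a, f (d * a) = f a}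
      mul_mem' := fun {f g} hf hg => ⟨fun k hk a => by
        simp only [Pi.mul_apply, hf.1 k hk, hg.1 k hk, map_mul], fun d hd a => by
        simp only [Pi.mul_apply, hf.2 d hd, hg.2 d hd]⟩
      one_mem' := ⟨fun k _ a => by simp, fun _ _ _ => rfl⟩
      inv_mem' := fun {f} hf => ⟨fun k hk a => by
        simp only [Pi.inv_apply, hf.1 k hk, map_inv], fun d hd a => by
        simp only [Pi.inv_apply, hf.2 d hd]⟩ }
  let tr : A → W → W := fun a f => ⟨fun x => f.1 (x * a), fun k hk x => by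
    simp only [mul_assoc]; exact f.2.1 k hk _, fun d hd x => by
    simp only [mul_assoc]; exact f.2.2 d hd _⟩
  let φ : A →* MulAut W :=
    { toFun := fun a =>
        { toFun := tr a
          invFun := tr a⁻¹
          left_inv := fun f => Subtype.ext (funext fun x => by simp [tr])
          right_inv := fun f => Subtype.ext (funext fun x => by simp [tr])
          map_mul' := fun f g => rfl }
      map_one' := MulEquiv.ext fun f => Subtype.ext (funext fun x => by simp [tr])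
      map_mul' := fun a b => MulEquiv.ext fun f => Subtype.ext (funext fun x => by
        simp [tr, mul_assoc]) }
  obtain ⟨v, hv⟩ := exists_ne (1 : V)
  let f : A → V := fun x => if h : ∃ k ∈ K, k⁻¹ * x ∈ D then c h.choose v else 1
  have hf : ∀ x k, k ∈ K → k⁻¹ * x ∈ D → f x = c k v := by
    intro x k hk hx
    have h : ∃ k ∈ K, k⁻¹ * x ∈ D := ⟨k, hk, hx⟩
    have h1 := h.choose_spec
    have h2 : c (k⁻¹ * h.choose) = 1 := hKD _ (K.mul_mem (K.inv_mem hk) h1.1) (by
      have := D.mul_mem hx (D.inv_mem h1.2)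
      simpa using this)
    have h3 : c h.choose = c k := by
      rw [map_mul, map_inv, inv_mul_eq_one] at h2; exact h2.symm
    simp only [f, dif_pos h, h3]
  have hf' : ∀ x, (¬ ∃ k ∈ K, k⁻¹ * x ∈ D) → f x = 1 := fun x h => dif_neg h
  have hfW : f ∈ W := by
    refine ⟨fun k hk a => ?_, fun d hd a => ?_⟩
    · by_cases h : ∃ k ∈ K, k⁻¹ * a ∈ D
      · obtain ⟨k', hk', ha⟩ := h
        rw [hf a k' hk' ha, hf (k * a) (k * k') (K.mul_mem hk hk') (by simpa [mul_assoc] using ha),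
          map_mul, MulAut.mul_apply]
      · rw [hf' a h, map_one, hf']
        rintro ⟨k', hk', ha⟩
        exact h ⟨k⁻¹ * k', K.mul_mem (K.inv_mem hk) hk', by simpa [mul_assoc] using ha⟩
    · have key : ∀ k : A, k⁻¹ * (d * a) ∈ D ↔ k⁻¹ * a ∈ D := fun k => by
        have h1 : k⁻¹ * d * k⁻¹⁻¹ ∈ D := hD.conj_mem d hd _
        have h2 : k⁻¹ * (d * a) = (k⁻¹ * d * k⁻¹⁻¹) * (k⁻¹ * a) := by group
        rw [h2, D.mul_mem_cancel_left h1]
      by_cases h : ∃ k ∈ K, k⁻¹ * a ∈ D
      · obtain ⟨k', hk', ha⟩ := h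
        rw [hf a k' hk' ha, hf (d * a) k' hk' ((key k').2 ha)]
      · rw [hf' a h, hf']
        rintro ⟨k', hk', ha⟩
        exact h ⟨k', hk', (key k').1 ha⟩
  have hnt : Nontrivial W := ⟨⟨⟨f, hfW⟩, 1, fun h => hv (by
    have h1 : f 1 = 1 := congrFun (congrArg Subtype.val h) 1
    rw [hf 1 1 K.one_mem (by simp), map_one] at h1
    exact h1)⟩⟩
  refine ⟨W, inferInstance, inferInstance, hnt, φ, ?_, fun d hd => ?_, fun a ha h w hw => ?_⟩
  · obtain ⟨n, hn⟩ := hV.exists_card_eq
    intro w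
    refine ⟨n, Subtype.ext (funext fun x => ?_)⟩
    change (w.1 x) ^ 2 ^ n = 1
    rw [← hn]; exact pow_card_eq_one'
  · refine MulEquiv.ext fun w => Subtype.ext (funext fun x => ?_)
    change w.1 (x * d) = w.1 x
    rw [← w.2.2 _ (hD.conj_mem d hd x) x]
    congr 1; group
  · refine Subtype.ext (funext fun x => h x _ ?_)
    rw [← w.2.1 _ (hK.conj_mem a ha x) x]
    have := congrFun (congrArg Subtype.val hw) x
    change w.1 (x * a) = w.1 x at this
    rw [← this]
    congr 1; group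

open scoped IsMulCommutative in
/-- Transfer: a group generated by `r'`-elements with abelian Sylow `r`-subgroups has no central
element of order `r`. -/
theorem eq_one_of_central {L : Type*} [Group L] [Finite L] {r : ℕ} [hr : Fact r.Prime]
    (s : Set L) (hs : Subgroup.closure s = ⊤) (hs' : ∀ x ∈ s, (orderOf x).Coprime r)
    (P : Sylow r L) [IsMulCommutative P] {z : L} (hz : z ∈ Subgroup.center L) (hzr : z ^ r = 1) :
    z = 1 := by
  let τ : L →* P := MonoidHom.transfer (MonoidHom.id P)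
  have hτ : τ = 1 := by
    refine MonoidHom.eq_of_eqOn_dense hs fun x hx => ?_
    obtain ⟨k, hk⟩ := P.isPGroup' (τ x)
    exact orderOf_eq_one_iff.1 (Nat.eq_one_of_dvd_coprimes ((hs' x hx).pow_right k)
      (orderOf_map_dvd τ x) (orderOf_dvd_of_pow_eq_one hk))
  have h1 := MonoidHom.transfer_eq_pow (MonoidHom.id P) z (fun k g _ => by
    have := Subgroup.mem_center_iff.1 (Subgroup.pow_mem _ hz k) g⁻¹
    rw [this]; group)
  have h2 : τ z = 1 := by rw [hτ]; rfl
  have h3 : z ^ (P : Subgroup L).index = 1 := congrArg Subtype.val (h1.symm.trans h2)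
  exact orderOf_eq_one_iff.1 (Nat.eq_one_of_dvd_coprimes
    ((Nat.Prime.coprime_iff_not_dvd hr.out).2 P.not_dvd_index) (orderOf_dvd_of_pow_eq_one hzr)
    (orderOf_dvd_of_pow_eq_one h3))

variable {G : Type u} [Group G]

theorem exists_pow_orderOf_eq [Finite G] {r : ℕ} (hr : r.Prime) {x : G} (hx : ∃ k, x ^ r ^ k = 1)
    (h1 : x ≠ 1) : ∃ n : ℕ, orderOf (x ^ n) = r := by
  obtain ⟨k, hk⟩ := hx
  obtain ⟨j, -, hj⟩ := (Nat.dvd_prime_pow hr).1 (orderOf_dvd_of_pow_eq_one hk)
  refine exists_orderOf_eq_of_dvd ?_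
  rw [hj]
  refine dvd_pow_self r fun h0 => h1 ?_
  rw [h0, pow_zero, orderOf_eq_one_iff] at hj; exact hj

/-- If the odd prime `r` is not joined to some prime `q` of the normal subgroup `X`, the
`r`-subgroups of `G ⧸ X` are cyclic. -/
theorem isCyclic_of_not_edge [Finite G] (X : Subgroup G) [X.Normal] {r q : ℕ} (hr : r.Prime)
    (hr2 : r ≠ 2) (hq : q.Prime) (hrq : r ≠ q) (hqX : q ∣ Nat.card X) (hne : ¬ Edge G r q)
    (Y : Subgroup (G ⧸ X)) (hY : IsPGroup r Y) : IsCyclic Y := by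
  haveI := Fact.mk hr
  haveI := Fact.mk hq
  obtain ⟨Q₀⟩ : Nonempty (Sylow q X) := inferInstance
  set Q : Subgroup G := (Q₀ : Subgroup X).map X.subtype with hQ
  have hQp : IsPGroup q Q := Q₀.isPGroup'.map _
  have hQ1 : Q ≠ ⊥ := by
    rw [hQ, Ne, Subgroup.map_eq_bot_iff_of_injective _ X.subtype_injective]
    exact Q₀.ne_bot_of_dvd_card hqX
  have hsup := Q₀.normalizer_sup_eq_top
  rw [← hQ] at hsup
  let m : Subgroup.normalizer (Q : Set G) →* G ⧸ X := (QuotientGroup.mk' X).comp (Subgroup.subtype _)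
  have hm : Function.Surjective m := by
    intro x
    obtain ⟨g, rfl⟩ := QuotientGroup.mk_surjective x
    have hg : g ∈ Subgroup.normalizer (Q : Set G) ⊔ X := hsup ▸ Subgroup.mem_top g
    rw [← SetLike.mem_coe, Subgroup.mul_normal] at hg
    obtain ⟨a, ha, x, hx, rfl⟩ := hg
    refine ⟨⟨a, ha⟩, ?_⟩
    change ((a : G) : G ⧸ X) = ((a * x : G) : G ⧸ X)
    rw [QuotientGroup.eq]; simpa using hx
  obtain ⟨P, hP⟩ := hY.exists_le_sylow
  obtain ⟨R, rfl⟩ := Sylow.mapSurjective_surjective hm r P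
  have hRp : IsPGroup r ((R : Subgroup _).map (Subgroup.normalizer (Q : Set G)).subtype) :=
    R.isPGroup'.map _
  have hc : IsCyclic ((R : Subgroup _).map (Subgroup.normalizer (Q : Set G)).subtype) := by
    refine (H5.isCyclic_or_quaternion_of_fpf hQ1 (Subgroup.map_subtype_le _) (fun h hh h1 => ?_)
      hRp).resolve_right fun h => hr2 h.1
    rw [eq_bot_iff]
    rintro y ⟨hyQ, hy⟩
    rw [Subgroup.mem_bot]
    by_contra hy1
    obtain ⟨n, hn⟩ := exists_pow_orderOf_eq hr (x := h) (by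
      obtain ⟨k, hk⟩ := hRp ⟨h, hh⟩
      exact ⟨k, congrArg Subtype.val hk⟩) h1
    obtain ⟨n', hn'⟩ := exists_pow_orderOf_eq hq (x := y) (by
      obtain ⟨k, hk⟩ := hQp ⟨y, hyQ⟩
      exact ⟨k, congrArg Subtype.val hk⟩) hy1
    have hcomm : Commute h y := Subgroup.mem_centralizer_singleton_iff.1 hy |>.symm
    exact hne (edge_of_commute hr hq hrq hn hn' (hcomm.pow_pow _ _))
  have hc' : IsCyclic (R : Subgroup (Subgroup.normalizer (Q : Set G))) :=
    (MulEquiv.isCyclic (Subgroup.equivMapOfInjective _ _ (Subgroup.subtype_injective _))).2 hc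
  have hc'' : IsCyclic ((R : Subgroup (Subgroup.normalizer (Q : Set G))).map m) :=
    isCyclic_of_surjective _ (m.subgroupMap_surjective _)
  exact Subgroup.isCyclic_of_le (hP.trans (le_of_eq (Sylow.coe_mapSurjective hm R)))

/-- `Ω₁(Z(S))` for `p = 2`. -/
def omZ (S : Subgroup G) : Subgroup G where
  carrier := {z | z ∈ S ∧ (∀ s ∈ S, s * z = z * s) ∧ z ^ 2 = 1}
  mul_mem' := fun {a b} ha hb => ⟨S.mul_mem ha.1 hb.1, fun s hs => by
    rw [← mul_assoc, ha.2.1 s hs, mul_assoc, hb.2.1 s hs, mul_assoc], by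
    rw [Commute.mul_pow (hb.2.1 a ha.1), ha.2.2, hb.2.2, one_mul]⟩
  one_mem' := ⟨S.one_mem, fun s _ => by simp, one_pow 2⟩
  inv_mem' := fun {a} ha => ⟨S.inv_mem ha.1, fun s hs => (Commute.inv_right (ha.2.1 s hs)).eq, by
    rw [inv_pow, ha.2.2, inv_one]⟩

theorem normalizer_le_omZ (S : Subgroup G) :
    Subgroup.normalizer (S : Set G) ≤ Subgroup.normalizer (omZ S : Set G) := by
  have key : ∀ g ∈ Subgroup.normalizer (S : Set G), ∀ z ∈ omZ S, g * z * g⁻¹ ∈ omZ S := by
    intro g hg z hz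
    refine ⟨(Subgroup.mem_normalizer_iff.1 hg z).1 hz.1, fun s hs => ?_, ?_⟩
    · have h1 : g⁻¹ * s * g ∈ S := (Subgroup.mem_normalizer_iff''.1 hg s).1 hs
      have h2 := hz.2.1 _ h1
      calc s * (g * z * g⁻¹) = g * (g⁻¹ * s * g * z) * g⁻¹ := by group
        _ = g * z * g⁻¹ * s := by rw [h2]; group
    · rw [conj_pow, hz.2.2]; group
  intro g hg
  refine Subgroup.mem_normalizer_iff.2 fun z => ⟨key g hg z, fun h => ?_⟩
  have := key g⁻¹ (Subgroup.inv_mem _ hg) _ h
  simpa [mul_assoc] using this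

theorem omZ_ne_bot [Finite G] {S : Subgroup G} (hS : IsPGroup 2 S) (h1 : S ≠ ⊥) : omZ S ≠ ⊥ := by
  haveI := (Subgroup.nontrivial_iff_ne_bot S).2 h1
  haveI := hS.center_nontrivial
  obtain ⟨z, hz⟩ := exists_ne (1 : Subgroup.center S)
  obtain ⟨n, hn⟩ := exists_pow_orderOf_eq Nat.prime_two (x := z) (hS.to_subgroup _ z) hz
  intro h
  have hm : ((z ^ n : Subgroup.center S) : S).1 ∈ omZ S := by
    refine ⟨((z ^ n : Subgroup.center S) : S).2, fun s hs => ?_, ?_⟩
    · exact congrArg Subtype.val (Subgroup.mem_center_iff.1 (z ^ n).2 ⟨s, hs⟩)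
    · have : (z ^ n) ^ 2 = 1 := by rw [← hn, pow_orderOf_eq_one]
      exact congrArg (fun y : Subgroup.center S => (y : S).1) this
  rw [h, Subgroup.mem_bot] at hm
  have : z ^ n = 1 := Subtype.ext (Subtype.ext hm)
  rw [this, orderOf_one] at hn
  exact absurd hn (by norm_num)

theorem le_of_isPGroup_of_le_normalizer [Finite G] {p : ℕ} [Fact p.Prime] {X : Subgroup G}
    (S₀ : Sylow p X) {Q : Subgroup G} (hQ : IsPGroup p Q) (hQX : Q ≤ X)
    (hQN : Q ≤ Subgroup.normalizer (((S₀ : Subgroup X).map X.subtype : Subgroup G) : Set G)) :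
    Q ≤ (S₀ : Subgroup X).map X.subtype := by
  have h1 : IsPGroup p (Q.subgroupOf X) := hQ.comap_subtype
  have h2 := h1.inf_normalizer_sylow S₀
  intro y hy
  have h3 : (⟨y, hQX hy⟩ : X) ∈ Q.subgroupOf X ⊓ Subgroup.normalizer (S₀ : Set X) := by
    refine ⟨hy, Subgroup.mem_normalizer_iff.2 fun s => ?_⟩
    have := Subgroup.mem_normalizer_iff.1 (hQN hy) s
    rw [← Subgroup.mem_map_iff_mem X.subtype_injective (K := (S₀ : Subgroup X)),
      ← Subgroup.mem_map_iff_mem X.subtype_injective (K := (S₀ : Subgroup X))]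
    exact this
  rw [h2] at h3
  exact ⟨_, h3.2, rfl⟩

/-- Elements of odd prime order not joined to `2` act on `Ω₁(Z(S))` commuting with `A ∩ X`. -/
theorem commutator_le_centralizer [Finite G] {X : Subgroup G} [X.Normal] (S₀ : Sylow 2 X)
    (hX : ∀ q : ℕ, q.Prime → q ≠ 2 → q ∣ Nat.card X → Edge G 2 q) {A : Subgroup G}
    (hA : A ≤ Subgroup.normalizer (((S₀ : Subgroup X).map X.subtype : Subgroup G) : Set G))
    {x : G} (hxA : x ∈ A) {p : ℕ} (hp : p.Prime) (hp2 : p ≠ 2) (hx : orderOf x = p)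
    (hne : ¬ Edge G 2 p) :
    ⁅Subgroup.zpowers x, A ⊓ X⁆ ≤
      Subgroup.centralizer (omZ ((S₀ : Subgroup X).map X.subtype) : Set G) := by
  set S : Subgroup G := (S₀ : Subgroup X).map X.subtype with hS
  have hAV := hA.trans (normalizer_le_omZ S)
  have hxA' : Subgroup.zpowers x ≤ A := Subgroup.zpowers_le.2 hxA
  have hcard : Nat.card (Subgroup.zpowers x) = p := by rw [Nat.card_zpowers, hx]
  have hpX : ¬ p ∣ Nat.card X := fun h => hne (hX p hp hp2 h)
  by_contra hc
  obtain ⟨q, hq, hqN, Q, hQN, hQ, -, hxQ, hQC⟩ := H22.exists_invariant_pgroup_commutator_not_le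
    (Subgroup.zpowers x) (A ⊓ X) _ (by
      refine hxA'.trans fun a ha => Subgroup.mem_normalizer_iff.2 fun y => ?_
      rw [Subgroup.mem_inf, Subgroup.mem_inf,
        Subgroup.mem_normalizer_iff.1 (Subgroup.le_normalizer ha) y,
        Subgroup.mem_normalizer_iff.1 ((Subgroup.normalizer_eq_top X).ge (Subgroup.mem_top a)) y])
    (by
      rw [hcard]
      exact (Nat.Prime.coprime_iff_not_dvd hp).2 fun h =>
        hpX (h.trans (Subgroup.card_dvd_of_le inf_le_right)))
    (Or.inl (H1.isSolvable_of_isMulCommutative _))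
    ((inf_le_left.trans hAV).trans (H22.normalizer_le_normalizer_centralizer _)) hc
  by_cases hq2 : q = 2
  · subst hq2
    have hQS : Q ≤ S := le_of_isPGroup_of_le_normalizer S₀ hQ (hQN.trans inf_le_right)
      ((hQN.trans inf_le_left).trans hA)
    refine hQC (Subgroup.commutator_le.2 fun a ha y hy => ?_)
    have : ⁅a, y⁆ ∈ S := by
      rw [commutatorElement_def]
      exact S.mul_mem ((Subgroup.mem_normalizer_iff.1 (hA (hxA' ha)) y).1 (hQS hy))
        (S.inv_mem (hQS hy))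
    exact fun v hv => (hv.2.1 _ this).symm
  · refine hq2 (H22.hh_prime_fix_sub Nat.prime_two hq hp (Ne.symm hq2) ?_ (Subgroup.zpowers x) Q
      (omZ S) hcard hQ hxQ ⟨⟨⟨fun a b => Subtype.ext (b.2.2.1 a a.2.1)⟩⟩, fun a ha => ha.2.2⟩
      (hxA'.trans hAV) ((hQN.trans inf_le_left).trans hAV) ?_ hQC).1
    · rintro rfl
      exact hpX (hqN.trans (Subgroup.card_dvd_of_le inf_le_right))
    · rw [eq_bot_iff]
      rintro v ⟨hv, hvx⟩
      rw [Subgroup.mem_bot]
      by_contra hv1
      exact hne (edge_of_commute Nat.prime_two hp hp2.symm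
        (orderOf_eq_prime' Nat.prime_two hv.2.2 hv1) hx
        (hvx x (Subgroup.mem_zpowers x)).symm)

/-- Main construction. -/
theorem exists_same_of_normal [Finite G] (X : Subgroup G) [X.Normal] (h2 : 2 ∣ Nat.card X)
    (hX : ∀ q : ℕ, q.Prime → q ≠ 2 → q ∣ Nat.card X → Edge G 2 q) :
    ∃ (H : Type u) (_ : Group H) (_ : Finite H), Same G H ∧
      ∃ N : Subgroup H, N.Normal ∧ N ≠ ⊥ ∧ IsMulCommutative N := by
  obtain ⟨S₀⟩ : Nonempty (Sylow 2 X) := inferInstance
  set S : Subgroup G := (S₀ : Subgroup X).map X.subtype with hS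
  have hSp : IsPGroup 2 S := S₀.isPGroup'.map _
  have hS1 : S ≠ ⊥ := by
    rw [hS, Ne, Subgroup.map_eq_bot_iff_of_injective _ X.subtype_injective]
    exact S₀.ne_bot_of_dvd_card h2
  obtain ⟨A, ⟨hSA, hA, hAX⟩, hmin⟩ := H2.exists_minimal_subgroup
    (fun A : Subgroup G => S ≤ A ∧ A ≤ Subgroup.normalizer (S : Set G) ∧ A ⊔ X = ⊤)
    ⟨_, Subgroup.le_normalizer, le_rfl, S₀.normalizer_sup_eq_top⟩
  have hAV := hA.trans (normalizer_le_omZ S)
  set V := omZ S with hV
  letI : CommGroup V :=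
    { (inferInstance : Group V) with mul_comm := fun a b => Subtype.ext (b.2.2.1 a a.2.1) }
  haveI : Nontrivial V := (Subgroup.nontrivial_iff_ne_bot V).2 (omZ_ne_bot hSp hS1)
  have hVp : IsPGroup 2 V := fun v => ⟨1, Subtype.ext (by simpa using v.2.2.2)⟩
  let c : A →* MulAut V := V.normalizerMonoidHom.comp (Subgroup.inclusion hAV)
  have hc : ∀ (a : A) (v : V), ((c a v : V) : G) = a * v * (a : G)⁻¹ := fun _ _ => rfl
  have hc1 : ∀ a : A, (a : G) ∈ Subgroup.centralizer (V : Set G) → c a = 1 := fun a ha =>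
    MulEquiv.ext fun v => Subtype.ext (by
      rw [hc, ← ha v v.2]; simp)
  let B : Set A := {a | ∃ q : ℕ, q.Prime ∧ q ≠ 2 ∧ orderOf a = q ∧ ¬ Edge G 2 q}
  let Bad : ℕ → Prop := fun r => r.Prime ∧ r ≠ 2 ∧
    ∃ q : ℕ, q.Prime ∧ r ≠ q ∧ q ∣ Nat.card X ∧ ¬ Edge G r q
  let E : Set A := {d | (d : G) ∈ X ∧ ∃ r k : ℕ, Bad r ∧ d ^ r ^ k = 1}
  have hBc : ∀ g : A, ∀ a ∈ B, g * a * g⁻¹ ∈ B := by
    rintro g a ⟨q, h1, h2, h3, h4⟩
    exact ⟨q, h1, h2, by rw [← h3]; exact (MulAut.conj g).orderOf_eq a, h4⟩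
  have hEc : ∀ g : A, ∀ a ∈ E, g * a * g⁻¹ ∈ E := by
    rintro g a ⟨h1, r, k, h2, h3⟩
    exact ⟨‹X.Normal›.conj_mem _ h1 _, r, k, h2, by rw [conj_pow, h3]; group⟩
  have normal : ∀ T : Set A, (∀ g : A, ∀ a ∈ T, g * a * g⁻¹ ∈ T) → (Subgroup.closure T).Normal := by
    intro T hT
    refine ⟨fun a ha g => ?_⟩
    have : Subgroup.closure T ≤ (Subgroup.closure T).comap (MulAut.conj g).toMonoidHom :=
      (Subgroup.closure_le _).2 fun t ht => Subgroup.subset_closure (hT g t ht)
    exact this ha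
  haveI := normal B hBc
  haveI := normal E hEc
  have hEX : ∀ z ∈ Subgroup.closure E, (z : G) ∈ X := fun z hz =>
    (Subgroup.closure_le (X.subgroupOf A)).2 (fun d hd => hd.1) hz
  -- `K` and `D` commute on `V`
  have hcomm : ∀ k ∈ Subgroup.closure B, ∀ d : A, (d : G) ∈ X → Commute (c k) (c d) := by
    intro k hk d hd
    have : Subgroup.closure B ≤ (Subgroup.centralizer {c d}).comap c := by
      refine (Subgroup.closure_le _).2 ?_
      rintro a ⟨q, h1, h2, h3, h4⟩
      have h5 := commutator_le_centralizer S₀ hX hA a.2 h1 h2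
        (by rw [Subgroup.orderOf_coe, h3]) h4
        (Subgroup.commutator_mem_commutator (Subgroup.mem_zpowers _) (⟨d.2, hd⟩ : (d : G) ∈ A ⊓ X))
      have h6 := hc1 ⁅a, d⁆ h5
      rw [map_commutatorElement, commutatorElement_eq_one_iff_mul_comm] at h6
      exact Subgroup.mem_centralizer_singleton_iff.2 h6
    exact Subgroup.mem_centralizer_singleton_iff.1 (this hk)
  -- no bad primes in `c (K ∩ D)`
  have h4 : ∀ z ∈ Subgroup.closure B, (z : G) ∈ X → ∀ r, Bad r → ¬ r ∣ orderOf (c z) := by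
    rintro z hz hzX r ⟨hr, hr2, q, hq, hrq, hqX, hne⟩ hd
    haveI := Fact.mk hr
    let θ : A →* MulAut V × (G ⧸ X) := c.prod ((QuotientGroup.mk' X).comp A.subtype)
    have hL : ∀ y, y ∈ Subgroup.closure (θ '' B) ↔ ∃ k ∈ Subgroup.closure B, θ k = y := fun y => by
      rw [← MonoidHom.map_closure]; rfl
    have hcen : ∀ y : Subgroup.closure (θ '' B), y.1.2 = 1 →
        y ∈ Subgroup.center (Subgroup.closure (θ '' B)) := by
      rintro ⟨y, hy⟩ h1
      obtain ⟨k, hk, rfl⟩ := (hL y).1 hy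
      refine Subgroup.mem_center_iff.2 ?_
      rintro ⟨y', hy'⟩
      obtain ⟨k', hk', rfl⟩ := (hL y').1 hy'
      refine Subtype.ext (Prod.ext (hcomm k' hk' k ((QuotientGroup.eq_one_iff _).1 h1)).eq ?_)
      change (θ k').2 * (θ k).2 = (θ k).2 * (θ k').2
      change (θ k).2 = 1 at h1
      rw [h1, mul_one, one_mul]
    obtain ⟨P⟩ : Nonempty (Sylow r (Subgroup.closure (θ '' B))) := inferInstance
    let π : P →* G ⧸ X := (MonoidHom.snd _ _).comp ((Subgroup.subtype _).comp (Subgroup.subtype _))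
    haveI := isCyclic_of_not_edge X hr hr2 hq hrq hqX hne π.range
      (P.isPGroup'.of_surjective _ π.rangeRestrict_surjective)
    haveI : IsMulCommutative P := π.rangeRestrict.isMulCommutative_of_isCyclic_of_ker_le_center (by
      intro y hy
      have h1 := hcen y.1 (congrArg Subtype.val hy)
      exact Subgroup.mem_center_iff.2 fun y' =>
        Subtype.ext (Subgroup.mem_center_iff.1 h1 y'.1))
    obtain ⟨n, hn⟩ := exists_orderOf_eq_of_dvd hd
    have hzn : θ (z ^ n) ∈ Subgroup.closure (θ '' B) :=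
      (hL _).2 ⟨_, Subgroup.pow_mem _ hz n, rfl⟩
    have hz2 : (θ (z ^ n)).2 = 1 := (QuotientGroup.eq_one_iff _).2 (X.pow_mem hzX n)
    have h1 := eq_one_of_central (r := r) _ Subgroup.closure_closure_coe_preimage (by
      rintro ⟨_, hy⟩ ⟨a, ⟨p, hp, hp2, ha, hpe⟩, rfl⟩
      rw [← Subgroup.orderOf_coe]
      refine Nat.Coprime.coprime_dvd_left (orderOf_map_dvd θ a) ?_
      rw [ha]
      refine (Nat.coprime_primes hp hr).2 ?_
      rintro rfl
      have hz1 : orderOf ((z : G) ^ n) ∣ Nat.card X :=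
        Subgroup.orderOf_dvd_natCard X (X.pow_mem hzX n)
      refine hpe (hX p hp hp2 (Dvd.dvd.trans ?_ hz1))
      rw [← hn, ← map_pow, ← Subgroup.coe_pow, Subgroup.orderOf_coe]
      exact orderOf_map_dvd c _) P (hcen ⟨_, hzn⟩ hz2) (Subtype.ext (Prod.ext (by
        change c (z ^ n) ^ r = 1
        rw [map_pow, ← hn, pow_orderOf_eq_one]) (by
        change (θ (z ^ n)).2 ^ r = 1
        rw [hz2, one_pow])))
    have h3 : c (z ^ n) = 1 := congrArg (fun y : Subgroup.closure (θ '' B) => y.1.1) h1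
    rw [map_pow] at h3
    rw [h3, orderOf_one] at hn
    exact hr.ne_one hn.symm
  -- only bad primes in `c (D_bad)`
  have h5 : ∀ z ∈ Subgroup.closure E, ∀ s : ℕ, s.Prime → ¬ Bad s → ¬ s ∣ orderOf (c z) := by
    intro z hz s hs hbs hd
    haveI := Fact.mk hs
    have hle : Subgroup.closure E ≤ (pPrimeCore s c.range).comap c.rangeRestrict := by
      refine (Subgroup.closure_le _).2 ?_
      rintro d ⟨hdX, r, k, hr, hdk⟩
      haveI := Fact.mk hr.1
      have hzp : IsPGroup r (Subgroup.zpowers (⟨d, hdX⟩ : X.subgroupOf A)) := by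
        refine IsPGroup.of_card (n := (orderOf d).factorization r) ?_
        rw [Nat.card_zpowers, ← Subgroup.orderOf_coe]
        obtain ⟨j, -, hj⟩ := (Nat.dvd_prime_pow hr.1).1 (orderOf_dvd_of_pow_eq_one hdk)
        change orderOf d = _
        rw [hj, hr.1.factorization_pow, Finsupp.single_eq_same]
      obtain ⟨R₀, hR₀⟩ := hzp.exists_le_sylow
      have hfr := R₀.normalizer_sup_eq_top
      set R : Subgroup A := (R₀ : Subgroup (X.subgroupOf A)).map (X.subgroupOf A).subtype with hR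
      have hA' : (Subgroup.normalizer (R : Set A)).map A.subtype ⊔ S = A := by
        have hle : (Subgroup.normalizer (R : Set A)).map A.subtype ⊔ S ≤ A :=
          sup_le (Subgroup.map_subtype_le _) hSA
        refine hmin _ ⟨le_sup_right, hle.trans hA, ?_⟩ hle
        rw [eq_top_iff, ← hAX]
        refine sup_le ?_ le_sup_right
        have := congrArg (Subgroup.map A.subtype) hfr
        rw [Subgroup.map_sup, ← MonoidHom.range_eq_map, Subgroup.range_subtype,
          Subgroup.subgroupOf_map_subtype] at this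
        exact this.ge.trans
          (sup_le (le_sup_left.trans le_sup_left) (inf_le_left.trans le_sup_right))
      have hA'' : Subgroup.normalizer (R : Set A) ⊔ c.ker = ⊤ := by
        rw [eq_top_iff]
        intro a _
        have h1 : (a : G) ∈ (Subgroup.normalizer (R : Set A) ⊔ c.ker).map A.subtype := by
          rw [Subgroup.map_sup]
          have hSc : S ≤ c.ker.map A.subtype := fun y hy =>
            ⟨⟨y, hSA hy⟩, hc1 ⟨y, hSA hy⟩ fun v hv => (hv.2.1 y hy).symm, rfl⟩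
          exact sup_le_sup_left hSc _ (hA'.ge a.2)
        exact (Subgroup.mem_map_iff_mem A.subtype_injective).1 h1
      haveI : (R.map c.rangeRestrict).Normal := by
        refine ⟨?_⟩
        rintro _ ⟨y, hy, rfl⟩ ⟨_, a, rfl⟩
        have ha : a ∈ Subgroup.normalizer (R : Set A) ⊔ c.ker := hA'' ▸ Subgroup.mem_top a
        rw [← SetLike.mem_coe, Subgroup.mul_normal] at ha
        obtain ⟨m, hm, e, he, rfl⟩ := ha
        refine ⟨m * y * m⁻¹, (Subgroup.mem_normalizer_iff.1 hm y).1 hy, Subtype.ext ?_⟩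
        change c (m * y * m⁻¹) = c (m * e) * c y * (c (m * e))⁻¹
        rw [map_mul c m e, (MonoidHom.mem_ker.1 he), mul_one, map_mul, map_mul, map_inv]
      have hRp : IsPGroup r (R.map c.rangeRestrict) := (R₀.isPGroup'.map _).map _
      refine H2.le_pPrimeCore_of_not_dvd (N := R.map c.rangeRestrict) (fun h => ?_)
        ⟨d, ⟨_, hR₀ (Subgroup.mem_zpowers _), rfl⟩, rfl⟩
      obtain ⟨j, hj⟩ := hRp.exists_card_eq
      rw [hj] at h
      rw [(Nat.prime_dvd_prime_iff_eq hs hr.1).1 (hs.dvd_of_dvd_pow h)] at hbs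
      exact hbs hr
    refine H2.not_dvd_card_pPrimeCore s c.range (hd.trans ?_)
    have := Subgroup.orderOf_dvd_natCard (pPrimeCore s c.range) (x := c.rangeRestrict z) (hle hz)
    rwa [← Subgroup.orderOf_coe] at this
  obtain ⟨W, _, _, _, φ, hW, hφ1, hφ2⟩ := exists_coind hVp c (Subgroup.closure B)
    (Subgroup.closure E) (fun z hz hz' => by
      by_contra h1
      obtain ⟨s, hs, hd⟩ := Nat.exists_prime_and_dvd (mt orderOf_eq_one_iff.1 h1)
      by_cases hb : Bad s
      · exact h4 z hz (hEX z hz') s hb hd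
      · exact h5 z hz' s hs hb hd)
  refine exists_same_of_module X A hAX hW φ h2 hX (fun a q hq hq2 ha hne => ?_)
    (fun r q hr hr2 hq hrq hqX hne d hd ⟨k, hk⟩ =>
      hφ1 d (Subgroup.subset_closure ⟨hd, r, k, ⟨hr, hr2, q, hq, hrq, hqX, hne⟩, hk⟩))
  refine hφ2 a (Subgroup.subset_closure ⟨q, hq, hq2, ha, hne⟩) fun g v hv => ?_
  by_contra hv1
  have h1 : orderOf ((g * a * g⁻¹ : A) : G) = q := by
    rw [Subgroup.orderOf_coe, ← ha]; exact (MulAut.conj g).orderOf_eq a
  have h3 := congrArg Subtype.val hv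
  rw [hc, mul_inv_eq_iff_eq_mul] at h3
  exact hne (edge_of_commute Nat.prime_two hq hq2.symm
    (orderOf_eq_prime' Nat.prime_two v.2.2.2 fun h => hv1 (Subtype.ext h)) h1 h3.symm)

/-- A nontrivial normal subgroup of a minimal normal subgroup `M` has all primes of `M`. -/
theorem dvd_card_of_minimal [Finite G] {M : Subgroup G} [M.Normal]
    (hmin : ∀ K : Subgroup G, K.Normal → K ≤ M → K = ⊥ ∨ K = M) (T : Subgroup M) [T.Normal]
    (hT : T ≠ ⊥) {q : ℕ} (hq : q.Prime) (hd : q ∣ Nat.card M) : q ∣ Nat.card T := by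
  haveI := Fact.mk hq
  by_contra h
  have h1 : T ≤ pPrimeCore q M := H2.le_pPrimeCore_of_not_dvd h
  rcases hmin ((pPrimeCore q M).map M.subtype) inferInstance (Subgroup.map_subtype_le _) with h2 | h2
  · rw [Subgroup.map_eq_bot_iff_of_injective _ M.subtype_injective] at h2
    exact hT (le_bot_iff.1 (h2 ▸ h1))
  · refine H2.not_dvd_card_pPrimeCore q M ?_
    rwa [← Subgroup.card_map_of_injective M.subtype_injective, h2]

/-- A nontrivial finite group is almost simple, or has a nontrivial solvable normal subgroup, or has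
a normal subgroup of even order all of whose odd primes are joined to `2`. -/
theorem trichotomy [Finite G] [Nontrivial G]
    (hFT : ∀ K : Subgroup G, Odd (Nat.card K) → Group.IsSolvable K) :
    (∃ N : Subgroup G, N.Normal ∧ IsSimpleGroup N ∧ ¬ IsMulCommutative N ∧
      Subgroup.centralizer (N : Set G) = ⊥) ∨
    (∃ N : Subgroup G, N.Normal ∧ N ≠ ⊥ ∧ Group.IsSolvable N) ∨
    ∃ X : Subgroup G, X.Normal ∧ 2 ∣ Nat.card X ∧
      ∀ q : ℕ, q.Prime → q ≠ 2 → q ∣ Nat.card X → Edge G 2 q := by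
  by_cases hs : ∃ N : Subgroup G, N.Normal ∧ N ≠ ⊥ ∧ Group.IsSolvable N
  · exact Or.inr (Or.inl hs)
  have ev : ∀ N : Subgroup G, N.Normal → N ≠ ⊥ → 2 ∣ Nat.card N := fun N hN h1 => by
    by_contra h
    exact hs ⟨N, hN, h1, hFT N (Nat.two_dvd_ne_zero.1 h |> Nat.odd_iff.2)⟩
  obtain ⟨M, hM, hM1, hmin⟩ := H2.exists_minimal_normal G
  by_cases hC : Subgroup.centralizer (M : Set G) = ⊥
  swap
  · refine Or.inr (Or.inr ⟨M, hM, ev M hM hM1, fun q hq hq2 hd => ?_⟩)
    obtain ⟨t, ht⟩ := (dvd_card_iff Nat.prime_two).1 (ev _ inferInstance hC)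
    obtain ⟨x, hx⟩ := (dvd_card_iff hq).1 hd
    exact edge_of_commute Nat.prime_two hq hq2.symm (x := (t : G)) (y := (x : G))
      (by rw [Subgroup.orderOf_coe, ht]) (by rw [Subgroup.orderOf_coe, hx]) (t.2 x x.2).symm
  by_cases hsim : IsSimpleGroup M
  · refine Or.inl ⟨M, hM, hsim, fun h => hs ⟨M, hM, hM1, H1.isSolvable_of_isMulCommutative _⟩, hC⟩
  refine Or.inr (Or.inr ⟨M, hM, ev M hM hM1, fun q hq hq2 hd => ?_⟩)
  haveI := (Subgroup.nontrivial_iff_ne_bot M).2 hM1
  obtain ⟨T, hT, hT1, hTmin⟩ := H2.exists_minimal_normal M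
  have hTtop : T ≠ ⊤ := fun h => hsim ⟨fun K hK => by
    rw [← h]; exact hTmin K hK (h ▸ le_top)⟩
  obtain ⟨g, hg⟩ : ∃ g : G, ¬ T ≤ T.comap (MulAut.conjNormal g : MulAut M).toMonoidHom := by
    by_contra h
    push Not at h
    have hn : (T.map M.subtype).Normal := ⟨by
      rintro _ ⟨t, ht, rfl⟩ g
      exact ⟨_, h g ht, rfl⟩⟩
    rcases hmin _ hn (Subgroup.map_subtype_le _) with h2 | h2
    · exact hT1 ((Subgroup.map_eq_bot_iff_of_injective _ M.subtype_injective).1 h2)
    · refine hTtop (Subgroup.map_injective M.subtype_injective ?_)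
      rw [h2, ← MonoidHom.range_eq_map, Subgroup.range_subtype]
  set T' := T.comap (MulAut.conjNormal g : MulAut M).toMonoidHom with hT'
  have hT'1 : T' ≠ ⊥ := fun h => hT1 (by
    rw [eq_bot_iff]
    intro t ht
    have : (MulAut.conjNormal g : MulAut M).symm t ∈ T' := by simpa [hT'] using ht
    rw [h, Subgroup.mem_bot] at this
    simpa using this)
  have hdis : Disjoint T T' := (H2.le_or_disjoint_of_minimal_normal hTmin T').resolve_left hg
  obtain ⟨t, ht⟩ := (dvd_card_iff Nat.prime_two).1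
    (dvd_card_of_minimal hmin T' hT'1 Nat.prime_two (ev M hM hM1))
  obtain ⟨x, hx⟩ := (dvd_card_iff hq).1 (dvd_card_of_minimal hmin T hT1 hq hd)
  exact (edge_of_commute Nat.prime_two hq hq2.symm (x := (t : M)) (y := (x : M))
    (by rw [Subgroup.orderOf_coe, ht]) (by rw [Subgroup.orderOf_coe, hx])
    (Subgroup.commute_of_normal_of_disjoint T T' hT inferInstance hdis x t x.2 t.2).symm).of_inj
      M.subtype M.subtype_injective

end H90.GK
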