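/- U4 tower (row S5210), chapter q = 3: closed sets of roots. -/
import Cfsg.Agent.H90.Q3Spec

set_option autoImplicit false
set_option linter.unusedSectionVars false
set_option linter.unusedVariables false

namespace H90.Q3

/-- the code of a vector -/
def cd (x : V) : ℕ := x.x0.val + 3 * x.x1.val + 9 * x.x2.val + 27 * x.x3.val + 81 * x.x4.val

/-- the word of a table -/
def tw (d : V) (B : List V) (T : List (ℕ × List ℕ)) (x : V) : List V :=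
  ((T.lookup (cd x)).getD []).map fun i => (d :: B).getD i d

theorem tw_mem (d : V) (B : List V) (T : List (ℕ × List ℕ)) (x : V) : ∀ a ∈ tw d B T x, a ∈ d :: B := fun a h => by
  obtain ⟨i, -, rfl⟩ := List.mem_map.1 h
  rw [List.getD_eq_getElem?_getD]
  cases e : (d :: B)[i]? with
  | none => exact List.mem_cons_self
  | some b => exact List.mem_of_getElem? e

/-- equality up to sign -/
def Pm' (x y : V) : Prop := x = y ∨ x = ng y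
instance instDecPm (x y : V) : Decidable (Pm' x y) := by unfold Pm'; infer_instance

/-- a root orthogonal to `a0`, `a1` -/
def gg : V := ⟨1, 1, 1, -1, -1⟩

theorem sh_append (l l' : List V) (x : V) : sh (l ++ l') x = sh l (sh l' x) := List.foldr_append

theorem rf_rf_rf {a : V} (h : dot a a ≠ 0) (x y : V) : rf (rf a x) (rf a y) = rf a (rf x y) := by
  have e : dot a (rf x y) = 2 * dot x y * dot x x * dot a x - dot a y := by simp only [dot, rf]; ring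
  ext <;> (rw [rf, dot_rf h, dot_rf h, rf, rf, rf, e]; simp only [rf]; ring)

variable {R : V → Prop}

theorem Cl.pm (h : Cl R) {x y : V} (e : Pm' x y) : R x ↔ R y := by
  rcases e with rfl | rfl
  exacts [Iff.rfl, ⟨fun k => ng_ng y ▸ h.ng _ k, h.ng _⟩]

theorem Cl.sh_iff (h : Cl R) {l : List V} (hl : ∀ a ∈ l, R a) (y : V) : R (H90.Q3.sh l y) ↔ R y := by
  refine ⟨fun k => ?_, h.sh hl⟩
  induction l with
  | nil => exact k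
  | cons a l ih =>
    have ha := hl a List.mem_cons_self
    exact ih (fun b hb => hl b (List.mem_cons_of_mem _ hb)) (rf_rf (h.ro a ha).ne (H90.Q3.sh l y) ▸ h.rf _ _ ha k)

theorem Cl.tab (h : Cl R) {B : List V} (hB : ∀ a ∈ B, R a) (T : List (ℕ × List ℕ)) {x y : V}
    (e : Pm' (H90.Q3.sh (tw a0 B T x) x) y) : R x ↔ R y :=
  (h.sh_iff (fun a k => (List.mem_cons.1 (tw_mem _ _ _ _ a k)).elim (· ▸ h.r0) (hB a)) x).symm.trans (h.pm e)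

theorem nl_fact : ∀ a ∈ NL, rf a a0 = ng a0 ∧ rf a a1 = ng a1 ∧
    ∀ x, Ro x → pL x → pL (rf a x) ∧ ((rf a x).x3 = 0 → x.x3 = 0) := by decide +kernel

theorem Cl.nl (h : Cl R) {a : V} (ha : a ∈ NL) : Cl fun x => R (H90.Q3.rf a x) :=
  have n := NL_ne a ha
  have f := nl_fact a ha
  have ro : ∀ x, R (H90.Q3.rf a x) → Ro x := fun x k => (dot_rf n x x).symm.trans (h.ro _ k)
  ⟨ro, fun x k => rf_ng a x ▸ h.ng _ k, fun x y k k' => rf_rf_rf n x y ▸ h.rf _ _ k k', f.1 ▸ h.ng _ h.r0,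
    f.2.1 ▸ h.ng _ h.r1, fun x y k k' p p' d e => (f.2.2 x (ro x k) p).2 (h.no _ _ k k' (f.2.2 x (ro x k) p).1
      (f.2.2 y (ro y k') p').1 ((dot_rf n x y).trans d) fun q => e (by rw [← rf_rf n y, q, ← rf_ng, rf_rf n]))⟩

theorem Cl.nw {l : List V} (hl : ∀ a ∈ l, a ∈ NL) : ∀ {R : V → Prop}, Cl R → Cl fun x => R (H90.Q3.sh l x) := by
  induction l with
  | nil => exact fun h => h
  | cons a l ih => exact fun h => ih (fun b hb => hl b (List.mem_cons_of_mem _ hb)) (h.nl (hl a List.mem_cons_self))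

theorem Cl.n1 (h : Cl R) (a : R a4) (b : R ee) : False :=
  absurd (h.no _ _ a (h.ng _ b) (by decide) (by decide) (by decide) (by decide)) (by decide)
theorem Cl.n2 (h : Cl R) (a : R a3) (b : R ff) : False :=
  absurd (h.no _ _ a (h.ng _ b) (by decide) (by decide) (by decide) (by decide)) (by decide)
theorem Cl.n3 (h : Cl R) (a : R ee) (b : R gg) : False :=
  absurd (h.no _ _ a b (by decide) (by decide) (by decide) (by decide)) (by decide)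

/-- words in `A₂` -/
def t2 : List (ℕ × List ℕ) :=
  [(4, [0, 1]), (8, [0, 1]), (10, [0]), (20, [0]), (30, [0]), (33, [0]), (36, [0, 1]), (45, [0, 1]), (57, [0]),
   (60, [0]), (63, [0, 1]), (72, [0, 1]), (84, [0]), (87, [0]), (90, [0, 1]), (99, [0, 1]), (124, [0]),
   (125, [0, 1]), (130, [0, 1]), (131, [0]), (151, [0]), (152, [0, 1]), (157, [0, 1]), (158, [0]), (165, [0]),
   (168, [0]), (171, [0, 1]), (180, [0, 1]), (205, [0]), (206, [0, 1]), (211, [0, 1]), (212, [0]), (232, [0]),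
   (233, [0, 1]), (238, [0, 1]), (239, [0])]

/-- words in `A₄` -/
def tA : List (ℕ × List ℕ) :=
  [(4, [2, 1, 0, 3, 2, 1]), (8, [2, 1, 0, 3, 2, 1]), (10, [2, 1, 0, 3, 2]), (11, [1]), (12, [2, 1, 3, 2]),
   (15, [1, 0]), (19, [1]), (20, [2, 1, 0, 3, 2]), (21, [1, 0]), (24, [2, 1, 3, 2]), (28, [2, 1, 0, 3]),
   (29, [1, 2]), (30, [2, 1, 3]), (33, [1, 0, 2]), (36, [2, 3]), (45, [1, 0, 2, 1]), (55, [1, 2]),
   (56, [2, 1, 0, 3]), (57, [1, 0, 2]), (60, [2, 1, 3]), (63, [1, 0, 2, 1]), (72, [2, 3]), (82, [2, 1, 0]),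
   (83, [1, 2, 3]), (84, [2, 1]), (87, [1, 0, 2, 3]), (90, [2]), (99, [1, 0, 2, 1, 3]), (122, [3, 2, 1, 0]),
   (124, [3, 2, 1]), (125, [2, 1, 0, 3, 2, 1]), (130, [3, 2]), (131, [2, 1, 0, 3, 2]), (133, [2, 1, 3, 2]),
   (135, [1, 0, 2, 1, 3, 2]), (148, [3]), (149, [2, 1, 0, 3]), (151, [2, 1, 3]), (152, [2]), (157, [2, 3]),
   (158, [2, 1]), (160, [2, 1, 0]), (163, [1, 2, 3]), (164, [2, 1, 0]), (165, [1, 0, 2, 3]), (168, [2, 1]),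
   (171, [1, 0, 2, 1, 3]), (180, [2]), (189, [1, 0, 2, 1, 3, 2]), (203, [2, 1, 0]), (205, [2, 1]), (206, [2, 3]),
   (211, [2]), (212, [2, 1, 3]), (214, [2, 1, 0, 3]), (215, [3]), (230, [2, 1, 3, 2]), (232, [2, 1, 0, 3, 2]),
   (233, [3, 2]), (238, [2, 1, 0, 3, 2, 1]), (239, [3, 2, 1]), (241, [3, 2, 1, 0])]

/-- words in `D₅` -/
def t5 : List (ℕ × List ℕ) :=
  [(4, [1, 2, 3, 4, 2, 1]), (8, [1, 2, 3, 4, 2, 1]), (10, [1, 2, 3, 4, 2]), (11, [1]), (12, [1, 0, 2, 3, 4, 2]),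
   (15, [1, 0]), (19, [1]), (20, [1, 2, 3, 4, 2]), (21, [1, 0]), (24, [1, 0, 2, 3, 4, 2]), (28, [1, 2, 3, 4]),
   (29, [1, 2]), (30, [1, 0, 2, 3, 4]), (33, [1, 0, 2]), (36, [1, 0, 2, 1, 3, 4]), (45, [1, 0, 2, 1]), (55, [1, 2]),
   (56, [1, 2, 3, 4]), (57, [1, 0, 2]), (60, [1, 0, 2, 3, 4]), (63, [1, 0, 2, 1]), (72, [1, 0, 2, 1, 3, 4]),
   (82, [1, 2, 4]), (83, [1, 2, 3]), (84, [1, 0, 2, 4]), (87, [1, 0, 2, 3]), (90, [1, 0, 2, 1, 4]),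
   (99, [1, 0, 2, 1, 3]), (108, [1, 0, 2, 1, 4, 2]), (122, [4, 2, 1, 3, 2, 4]), (124, [4, 2, 1, 0, 3, 2, 4]),
   (125, [4, 2, 1, 0, 3, 2, 1]), (130, [4, 2, 1, 0, 3, 2, 1, 4]), (131, [4, 2, 1, 0, 3, 2]), (133, [4, 2, 1, 3, 2]),
   (134, [4]), (135, [1, 0, 2, 1, 3, 2]), (148, [4, 2, 1, 0, 3, 2, 1, 4, 2]), (149, [4, 2, 1, 0, 3]),
   (151, [4, 2, 1, 3]), (152, [4, 2]), (157, [4, 2, 3]), (158, [4, 2, 1]), (160, [4, 2, 1, 0]),
   (161, [4, 2, 1, 0, 3, 2, 1, 4, 2, 3]), (163, [1, 2, 3]), (164, [1, 2, 4]), (165, [1, 0, 2, 3]),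
   (168, [1, 0, 2, 4]), (171, [1, 0, 2, 1, 3]), (180, [1, 0, 2, 1, 4]), (189, [1, 0, 2, 1, 3, 2]),
   (202, [4, 2, 1, 0, 3, 2, 1, 4, 2, 3]), (203, [4, 2, 1, 0]), (205, [4, 2, 1]), (206, [4, 2, 3]), (211, [4, 2]),
   (212, [4, 2, 1, 3]), (214, [4, 2, 1, 0, 3]), (215, [4, 2, 1, 0, 3, 2, 1, 4, 2]), (216, [1, 0, 2, 1, 4, 2]),
   (229, [4]), (230, [4, 2, 1, 3, 2]), (232, [4, 2, 1, 0, 3, 2]), (233, [4, 2, 1, 0, 3, 2, 1, 4]),
   (238, [4, 2, 1, 0, 3, 2, 1]), (239, [4, 2, 1, 0, 3, 2, 4]), (241, [4, 2, 1, 3, 2, 4])]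

/-- words in `D₄` -/
def t4 : List (ℕ × List ℕ) :=
  [(4, [1, 2, 3, 1]), (8, [1, 2, 3, 1]), (10, [1, 2, 3]), (11, [1]), (12, [1, 0, 2, 3]), (15, [1, 0]), (19, [1]),
   (20, [1, 2, 3]), (21, [1, 0]), (24, [1, 0, 2, 3]), (28, [1, 3]), (29, [1, 2]), (30, [1, 0, 3]), (33, [1, 0, 2]),
   (36, [1, 0, 3, 1]), (45, [1, 0, 2, 1]), (55, [1, 2]), (56, [1, 3]), (57, [1, 0, 2]), (60, [1, 0, 3]),
   (63, [1, 0, 2, 1]), (72, [1, 0, 3, 1]), (82, [3, 1, 0]), (83, [2, 1, 0]), (84, [3, 1]), (87, [2, 1]), (90, [3]),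
   (99, [2]), (108, [2, 3]), (121, [3, 1, 0, 2, 1, 3]), (122, [2, 1, 0]), (124, [2, 1]), (125, [3]), (130, [2]),
   (131, [3, 1]), (133, [3, 1, 0]), (134, [2, 1, 0, 3, 1, 2]), (149, [3, 1, 2]), (151, [3, 1, 0, 2]),
   (152, [2, 1, 0, 3, 1]), (157, [3, 1, 0, 2, 1]), (158, [2, 1, 0, 3]), (160, [2, 1, 3]), (163, [2, 1, 0]),
   (164, [3, 1, 0]), (165, [2, 1]), (168, [3, 1]), (171, [2]), (180, [3]), (203, [2, 1, 3]), (205, [2, 1, 0, 3]),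
   (206, [3, 1, 0, 2, 1]), (211, [2, 1, 0, 3, 1]), (212, [3, 1, 0, 2]), (214, [3, 1, 2]), (216, [2, 3]),
   (229, [2, 1, 0, 3, 1, 2]), (230, [3, 1, 0]), (232, [3, 1]), (233, [2]), (238, [3]), (239, [2, 1]),
   (241, [2, 1, 0]), (242, [3, 1, 0, 2, 1, 3])]

/-- words in `D₃` -/
def t3 : List (ℕ × List ℕ) :=
  [(28, [2, 0]), (29, [1, 0]), (30, [2]), (33, [1]), (55, [1, 0]), (56, [2, 0]), (57, [1]), (60, [2]), (82, [1, 0]),
   (83, [2, 0]), (84, [1]), (87, [2]), (122, [2]), (124, [2, 0]), (125, [2, 0, 1]), (130, [2, 0, 1]), (131, [2, 0]),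
   (133, [2]), (149, [2]), (151, [2, 0]), (152, [2, 0, 1]), (157, [2, 0, 1]), (158, [2, 0]), (160, [2]),
   (163, [2, 0]), (164, [1, 0]), (165, [2]), (168, [1]), (203, [2]), (205, [2, 0]), (206, [2, 0, 1]),
   (211, [2, 0, 1]), (212, [2, 0]), (214, [2]), (230, [2]), (232, [2, 0]), (233, [2, 0, 1]), (238, [2, 0, 1]),
   (239, [2, 0]), (241, [2])]

/-- words in the letters of `NL` -/
def tN : List (ℕ × List ℕ) :=
  [(28, [3, 2, 1, 0]), (29, [3, 2, 1, 0]), (30, [3, 2, 1, 0]), (33, [3, 2, 1, 0]), (36, [0, 3, 1, 2, 1, 0]),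
   (45, [3, 2, 1, 0]), (55, [3, 2, 1, 0]), (56, [3, 2, 1, 0]), (57, [3, 2, 1, 0]), (60, [3, 2, 1, 0]),
   (63, [3, 2, 1, 0]), (72, [0, 3, 1, 2, 1, 0]), (82, [3, 1, 2, 1, 0]), (83, [3, 1, 2, 1, 0]), (84, [3, 1, 2, 1, 0]),
   (87, [3, 1, 2, 1, 0]), (90, [3, 1, 2, 1, 0]), (99, [0, 3, 2, 1, 0]), (121, [4, 0, 3, 2, 1, 0]),
   (122, [4, 3, 2, 1, 0]), (124, [4, 3, 2, 1, 0]), (125, [4, 0, 3, 2, 1, 0]), (130, [4, 3, 2, 1, 0]),
   (131, [4, 0, 3, 2, 1, 0]), (133, [4, 0, 3, 2, 1, 0]), (134, [4, 3, 2, 1, 0]), (148, [3, 2, 1, 0]),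
   (149, [0, 3, 2, 1, 0]), (151, [0, 3, 2, 1, 0]), (152, [3, 2, 1, 0]), (157, [0, 3, 2, 1, 0]), (158, [3, 2, 1, 0]),
   (160, [3, 2, 1, 0]), (161, [0, 3, 2, 1, 0]), (163, [3, 1, 2, 1, 0]), (164, [3, 1, 2, 1, 0]),
   (165, [3, 1, 2, 1, 0]), (168, [3, 1, 2, 1, 0]), (171, [0, 3, 2, 1, 0]), (180, [3, 1, 2, 1, 0]),
   (202, [0, 3, 2, 1, 0]), (203, [3, 2, 1, 0]), (205, [3, 2, 1, 0]), (206, [0, 3, 2, 1, 0]), (211, [3, 2, 1, 0]),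
   (212, [0, 3, 2, 1, 0]), (214, [0, 3, 2, 1, 0]), (215, [3, 2, 1, 0]), (229, [4, 3, 2, 1, 0]),
   (230, [4, 0, 3, 2, 1, 0]), (232, [4, 0, 3, 2, 1, 0]), (233, [4, 3, 2, 1, 0]), (238, [4, 0, 3, 2, 1, 0]),
   (239, [4, 3, 2, 1, 0]), (241, [4, 3, 2, 1, 0]), (242, [4, 0, 3, 2, 1, 0])]

theorem c2 : ∀ x, Ro x → ¬ pL x → ∃ m n : Fin 3, Pm' (sh (tw a0 [a1] t2 x) x) (sh (tl m n) b2) := by
  decide +kernel

theorem cA : ∀ x, Ro x → let y := sh (tw a0 [a1, a2, a3] tA x) x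
    (pA4 x ∧ Pm' y a0) ∨ (¬ pA4 x ∧ ((Pm' x ee ∧ ¬ pD5 x) ∨ (Pm' y a4 ∧ ¬ pA41 x) ∨
      ((Pm' y ff ∨ Pm' y gg) ∧ ¬ pA41 x ∧ ¬ pD5 x))) := by
  decide +kernel

theorem c5 : ∀ x, Ro x → let y := sh (tw a0 [a1, a2, a3, a4] t5 x) x
    (pD5 x ∧ Pm' y a0) ∨ (¬ pD5 x ∧ Pm' y ee) := by
  decide +kernel

theorem c4' : ∀ x, Ro x → let y := sh (tw a0 [a1, a2, b3] t4 x) x
    (pD4 x ∧ Pm' y a0) ∨ (¬ pD4 x ∧ (pD5 x → Pm' y a3) ∧ ∃ k : Fin 3, Pm' y (sh (tl k k) a3)) := by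
  decide +kernel

theorem c3'' : ∀ x, Ro x → ¬ pD32 x → let y := sh (tw a0 [a1, b2] t3 x) x
    let l := tw a3 NL.tail tN x
    Pm' c3' (sh l a2) ∧ (Pm' y (sh l a3) ∨ Pm' y (sh l b3)) := by
  decide +kernel

theorem jobCA : JobCA := fun R h ⟨x, hx, p⟩ =>
  let ⟨m, n, e⟩ := c2 x (h.ro x hx) p
  ⟨m, n, (h.tab (by simpa using h.r1) _ e).1 hx⟩

theorem Cl.genA (h : Cl R) (k2 : R a2) (k3 : R a3) {x : V} (r : Ro x) (p : pA4 x) : R x :=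
  (cA x r).elim (fun e => (h.tab (by simp [h.r1, k2, k3]) _ e.2).2 h.r0) fun e => absurd p e.1

theorem Cl.outA (h : Cl R) (k2 : R a2) (k3 : R a3) {x : V} (hx : R x) (p : ¬ pA4 x) :
    (Pm' x ee ∧ ¬ pD5 x) ∨ (R a4 ∧ ¬ pA41 x) ∨ (R gg ∧ ¬ pA41 x ∧ ¬ pD5 x) := by
  have B : ∀ a ∈ [a1, a2, a3], R a := by simp [h.r1, k2, k3]
  rcases cA x (h.ro x hx) with e | ⟨-, e | e | ⟨e | e, e'⟩⟩
  exacts [absurd e.1 p, .inl e, .inr (.inl ⟨(h.tab B _ e.1).1 hx, e.2⟩), (h.n2 k3 ((h.tab B _ e).1 hx)).elim,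
    .inr (.inr ⟨(h.tab B _ e).1 hx, e'⟩)]

theorem Cl.genD (h : Cl R) (k2 : R a2) (k3 : R b3) {x : V} (r : Ro x) (p : pD4 x) : R x :=
  (c4' x r).elim (fun e => (h.tab (by simp [h.r1, k2, k3]) _ e.2).2 h.r0) fun e => absurd p e.1

theorem Cl.u5 (h : Cl R) (k2 : R a2) (k3 : R a3) (k4 : R a4) : Eqv R pD5 := fun x =>
  have B : ∀ a ∈ [a1, a2, a3, a4], R a := by simp [h.r1, k2, k3, k4]
  ⟨fun hx => ⟨h.ro x hx, (c5 x (h.ro x hx)).elim (·.1) fun e => (h.n1 k4 ((h.tab B _ e.2).1 hx)).elim⟩,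
    fun ⟨r, p⟩ => (c5 x r).elim (fun e => (h.tab B _ e.2).2 h.r0) fun e => absurd p e.1⟩

theorem Cl.u41 (h : Cl R) (k2 : R a2) (k3 : R a3) (k : R ee) : Eqv R pA41 := fun x =>
  ⟨fun hx => ⟨h.ro x hx, by
      by_cases p : pA4 x
      · exact .inl p
      · rcases h.outA k2 k3 hx p with e | e | e
        exacts [.inr e.1, (h.n1 e.1 k).elim, (h.n3 k e.1).elim]⟩,
    fun ⟨r, p⟩ => p.elim (h.genA k2 k3 r) fun e => (h.pm e).2 k⟩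

theorem jobU : JobU := fun R h k2 => ⟨h.u5 k2, h.u41 k2, fun k3 d n x =>
    ⟨fun hx => ⟨h.ro x hx, by
      by_contra p
      rcases h.outA k2 k3 hx p with e | e | e
      exacts [e.2 (d x hx), n e.1, e.2.2 (d x hx)]⟩, fun ⟨r, p⟩ => h.genA k2 k3 r p⟩,
  fun k3 d n x => ⟨fun hx => ⟨h.ro x hx, (c4' x (h.ro x hx)).elim (·.1) fun e =>
      (n ((h.tab (by simp [h.r1, k2, k3]) _ (e.2.1 (d x hx))).1 hx)).elim⟩, fun ⟨r, p⟩ => h.genD k2 k3 r p⟩⟩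

theorem tl_d4 : ∀ k : Fin 3, (Ro (sh (tl k k) a2) ∧ pD4 (sh (tl k k) a2)) ∧ Ro (sh (tl k k) b3) ∧
    pD4 (sh (tl k k) b3) := by decide +kernel

theorem jobCB : JobCB := fun R h b => by
  by_cases g : ∀ x, R x → pD32 x
  · exact .inl g
  right
  push Not at g
  obtain ⟨x, hx, p⟩ := g
  obtain ⟨e2, e⟩ := c3'' x (h.ro x hx) p
  have B : ∀ a ∈ [a1, b2], R a := by simp [h.r1, b]
  have hl : ∀ a ∈ tw a3 NL.tail tN x, a ∈ NL := tw_mem _ _ _ _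
  generalize tw a3 NL.tail tN x = l at e2 e hl
  have h1 := Cl.nw hl h
  have k2 : R (sh l a2) := (h.pm e2).1
    ((h.pm (y := sh [a1, a0] b2) (by decide)).2 (h.sh (by simp [h.r0, h.r1]) b))
  rcases e with e | e
  · have k3 := (h.tab B _ e).1 hx
    by_cases g : ∀ y, R (sh l y) → pA4 y
    · exact ⟨l, hl, _, .inl rfl, fun y => ⟨fun hy => ⟨h1.ro y hy, g y hy⟩, fun ⟨r, q⟩ => h1.genA k2 k3 r q⟩⟩
    push Not at g
    obtain ⟨y, hy, q⟩ := g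
    rcases h1.outA k2 k3 hy q with f | f | f
    · exact ⟨l, hl, _, .inr (.inl rfl), h1.u41 k2 k3 ((h1.pm f.1).1 hy)⟩
    · exact ⟨l, hl, _, .inr (.inr (.inl rfl)), h1.u5 k2 k3 f.1⟩
    · refine ⟨l ++ [ee], by simpa [or_imp, forall_and] using ⟨hl, by decide⟩, _, .inr (.inr (.inl rfl)), ?_⟩
      simp only [sh_append]
      exact (h1.nl (a := ee) (by decide)).u5 ((h1.pm (by decide)).2 k2) ((h1.pm (by decide)).2 k3)
        ((h1.pm (by decide)).2 f.1)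
  · have k3 := (h.tab B _ e).1 hx
    by_cases g : ∀ y, R (sh l y) → pD4 y
    · exact ⟨l, hl, _, .inr (.inr (.inr rfl)),
        fun y => ⟨fun hy => ⟨h1.ro y hy, g y hy⟩, fun ⟨r, q⟩ => h1.genD k2 k3 r q⟩⟩
    push Not at g
    obtain ⟨y, hy, q⟩ := g
    obtain ⟨-, -, k, f⟩ := (c4' y (h1.ro y hy)).resolve_left fun e => q e.1
    have h2 := Cl.nw (tl_NL k k) h1
    have j2 := h1.genD k2 k3 (tl_d4 k).1.1 (tl_d4 k).1.2
    have j3 := h1.genD k2 k3 (tl_d4 k).2.1 (tl_d4 k).2.2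
    have j := (h1.tab (by simp [h1.r1, k2, k3]) _ f).1 hy
    refine ⟨l ++ tl k k, fun a ha => (List.mem_append.1 ha).elim (hl a) (tl_NL k k a), _,
      .inr (.inr (.inl rfl)), ?_⟩
    simp only [sh_append]
    exact h2.u5 j2 j ((h2.pm (y := sh [a2, b3] a3) (by decide)).2 (h2.sh (by simp [j2, j3]) j))

end H90.Q3
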