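/- U4 tower (row S5210), chapter q = 3: the chapter is closed. -/
import Cfsg.Agent.H90.Q3Asm
import Cfsg.Agent.H90.Q3Tab
import Cfsg.Agent.H88.Q3N
import Cfsg.Agent.H1.Q3Hy
import Cfsg.Agent.H3.Q3Cj
import Cfsg.Agent.H41.Q3St
import Cfsg.Agent.H41.Q3Pull
import Cfsg.Agent.H75.Q3Dat
import Cfsg.Agent.H28.Q3K1

set_option autoImplicit false

namespace H90.Q3

theorem jobX3 : H28.U4.JobX3 :=
  x3 ⟨jobCA, jobCB, jobU, H88.Q3N.jobNA, H88.Q3N.jobND, H1.Q3Hy.jobHy, H3.Q3.jobCj, H3.Q3.jobSch, H41.Q3.jobSt,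
    H41.Q3.jobDA, H41.Q3.jobDD, H1.Q3Hy.jobTh, H41.Q3.jobPull, H28.Q3K.jobK1, H75.Q3D.jobDat, H41.Q3.jobCard,
    H75.Q3D.jobKK⟩

end H90.Q3
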