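/- U4 tower (row S5210), chapter q = 3: the reflections of `GSp₄(3)` as roots of `E₆` modulo three. -/
import Cfsg.Agent.H28.U4Gen

set_option autoImplicit false
set_option linter.unusedSectionVars false
set_option linter.unusedSimpArgs false
set_option linter.unusedVariables false
set_option linter.unnecessarySeqFocus false

open Subgroup H28.U4

namespace H90.Q3

/-- `Q / Z` -/
abbrev W : Type := F9 × F9

/-- the five dimensional orthogonal space -/
@[ext] structure V where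
  (x0 x1 x2 x3 x4 : ZMod 3)
  deriving DecidableEq

instance instFintypeV : Fintype V :=
  Fintype.ofEquiv (ZMod 3 × ZMod 3 × ZMod 3 × ZMod 3 × ZMod 3)
    ⟨fun x => ⟨x.1, x.2.1, x.2.2.1, x.2.2.2.1, x.2.2.2.2⟩, fun x => (x.x0, x.x1, x.x2, x.x3, x.x4),
      fun _ => rfl, fun _ => rfl⟩

/-- the standard form -/
def dot (x y : V) : ZMod 3 := x.x0 * y.x0 + x.x1 * y.x1 + x.x2 * y.x2 + x.x3 * y.x3 + x.x4 * y.x4
/-- scalar multiples -/
def sm (c : ZMod 3) (x : V) : V := ⟨c * x.x0, c * x.x1, c * x.x2, c * x.x3, c * x.x4⟩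
/-- negatives -/
def ng (x : V) : V := ⟨-x.x0, -x.x1, -x.x2, -x.x3, -x.x4⟩
/-- minus the reflection in `x`: `J x * J y = J (rf x y) * J x` -/
def rf (x y : V) : V :=
  ⟨2 * dot x y * dot x x * x.x0 - y.x0, 2 * dot x y * dot x x * x.x1 - y.x1, 2 * dot x y * dot x x * x.x2 - y.x2,
    2 * dot x y * dot x x * x.x3 - y.x3, 2 * dot x y * dot x x * x.x4 - y.x4⟩

/-- the self-adjoint map of trace zero with coordinates `x` -/
def Jf (x : V) (w : W) : W :=
  (⟨x.x4 * w.1.re + (x.x3 - x.x0 + x.x1) * w.1.im - (x.x0 + x.x1 + x.x2) * w.2.im,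
    (x.x3 + x.x0 - x.x1) * w.1.re - x.x4 * w.1.im + (x.x0 + x.x1 + x.x2) * w.2.re⟩,
   ⟨-(x.x0 + x.x1 - x.x2) * w.1.im + x.x4 * w.2.re + (x.x3 + x.x0 - x.x1) * w.2.im,
    (x.x0 + x.x1 - x.x2) * w.1.re + (x.x3 - x.x0 + x.x1) * w.2.re - x.x4 * w.2.im⟩)

theorem three : (3 : ZMod 3) = 0 := rfl
theorem z3 (x : ZMod 3) : x = 0 ∨ x = 1 ∨ x = -1 := by revert x; decide
theorem sq1 {x : ZMod 3} (h : x ≠ 0) : x * x = 1 := by revert x; decide

theorem W_ext {w w' : W} (a : w.1.re = w'.1.re) (b : w.1.im = w'.1.im) (c : w.2.re = w'.2.re)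
    (d : w.2.im = w'.2.im) : w = w' :=
  Prod.ext (QuadraticAlgebra.ext a b) (QuadraticAlgebra.ext c d)

@[simp] theorem σ_re (a : F9) : (T9.σ a).re = a.re := by
  change (star a).re = _
  simp [QuadraticAlgebra.re_star]
@[simp] theorem σ_im (a : F9) : (T9.σ a).im = -a.im := by
  change (star a).im = _
  simp [QuadraticAlgebra.im_star]

/-- the form in coordinates -/
theorem bf_eq (w w' : W) : bf T9 w w' =
    ⟨w.2.re * w'.1.re + w.2.im * w'.1.im - w.1.re * w'.2.re - w.1.im * w'.2.im, 0⟩ := by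
  ext <;> simp [bf, QuadraticAlgebra.re_mul, QuadraticAlgebra.im_mul] <;> grind

theorem Jf_add (x : V) (w w' : W) : Jf x (w + w') = Jf x w + Jf x w' := by
  apply W_ext <;> simp [Jf] <;> ring

theorem Jf_neg (x : V) (w : W) : Jf x (-w) = -Jf x w := by
  apply W_ext <;> simp [Jf] <;> ring

theorem Jf_ng (x : V) (w : W) : Jf (ng x) w = -Jf x w := by
  apply W_ext <;> simp [Jf, ng] <;> ring

theorem Jf_sm (c : ZMod 3) (x : V) (w : W) : Jf (sm c x) w = c • Jf x w := by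
  apply W_ext <;> simp [Jf, sm] <;> ring

theorem Jf_smul (c : ZMod 3) (x : V) (w : W) : Jf x (c • w) = c • Jf x w := by
  apply W_ext <;> simp [Jf] <;> ring

/-- the Clifford relation -/
theorem Jf_Jf (x y : V) (w : W) : Jf x (Jf y w) + Jf y (Jf x w) = (2 * dot x y) • w := by
  apply W_ext <;> simp [Jf, dot] <;> grind

theorem Jf_sq (x : V) (w : W) : Jf x (Jf x w) = dot x x • w := by
  apply W_ext <;> simp [Jf, dot] <;> grind

theorem bf_Jf (x : V) (w w' : W) : bf T9 (Jf x w) w' = bf T9 w (Jf x w') := by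
  rw [bf_eq, bf_eq]; congr 1; simp [Jf]; ring

theorem Jf_inj {x y : V} (h : ∀ w, Jf x w = Jf y w) : x = y := by
  have h1 := h (⟨1, 0⟩, 0)
  have h2 := h (⟨0, 1⟩, 0)
  have h3 := h (0, ⟨1, 0⟩)
  simp [Jf, Prod.ext_iff, QuadraticAlgebra.ext_iff] at h1 h2 h3
  ext <;> grind

/-- `Jf x` as a permutation (the identity for isotropic `x`) -/
def Jp (x : V) : Equiv.Perm W :=
  if h : dot x x = 0 then 1 else
    ⟨Jf x, Jf (sm (dot x x) x), fun w => by rw [Jf_sm, Jf_sq, smul_smul, sq1 h, one_smul],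
      fun w => by rw [Jf_sm, Jf_smul, Jf_sq, smul_smul, sq1 h, one_smul]⟩

theorem Jp_apply {x : V} (h : dot x x ≠ 0) (w : W) : Jp x w = Jf x w := by
  rw [Jp, dif_neg h]; rfl

/-- `x` is a root -/
def Ro (x : V) : Prop := dot x x = 2
instance instDecRo (x : V) : Decidable (Ro x) := inferInstanceAs (Decidable (dot x x = 2))

theorem Ro.ne {x : V} (h : Ro x) : dot x x ≠ 0 := by rw [h]; decide
theorem Ro.apply {x : V} (h : Ro x) (w : W) : Jp x w = Jf x w := Jp_apply h.ne w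

theorem dot_comm (x y : V) : dot x y = dot y x := by simp [dot, mul_comm]
theorem dot_ng (x y : V) : dot (ng x) (ng y) = dot x y := by simp [dot, ng]
theorem ng_ng (x : V) : ng (ng x) = x := by simp [ng]
theorem rf_ng (x y : V) : rf x (ng y) = ng (rf x y) := by ext <;> simp [rf, ng, dot] <;> ring

theorem dot_rf {x : V} (h : dot x x ≠ 0) (y z : V) : dot (rf x y) (rf x z) = dot y z := by
  have e : dot (rf x y) (rf x z) = dot y z + 4 * dot x y * dot x z * dot x x * (dot x x * dot x x - 1) := by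
    generalize ha : dot x y = a
    generalize hb : dot x z = b
    generalize hc : dot x x = c
    simp only [dot, rf] at *
    rw [ha, hb, hc]
    linear_combination (4 * a * b * c * c) * hc - (2 * a * c) * hb - (2 * b * c) * ha
  rw [e, sq1 h]; ring

theorem rf_rf {x : V} (h : dot x x ≠ 0) (y : V) : rf x (rf x y) = y := by
  have e : dot x (rf x y) = dot x y := by
    have : dot x (rf x y) = 2 * dot x y * (dot x x * dot x x) - dot x y := by simp only [dot, rf]; ring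
    rw [this, sq1 h]; ring
  ext <;> (rw [rf, e]; simp [rf])

theorem Ro.ng {x : V} (h : Ro x) : Ro (ng x) := (dot_ng x x).trans h
theorem Ro.rf {x y : V} (hx : dot x x ≠ 0) (h : Ro y) : Ro (rf x y) := (dot_rf hx y y).trans h

theorem Jf_rf {x : V} (h : dot x x ≠ 0) (y : V) (w : W) : Jf x (Jf y w) = Jf (rf x y) (Jf x w) := by
  have e : ∀ u, Jf (rf x y) u = (2 * dot x y * dot x x) • Jf x u - Jf y u := fun u => by
    apply W_ext <;> simp [Jf, rf] <;> ring
  rw [e, Jf_sq, smul_smul, mul_assoc, sq1 h, mul_one, ← Jf_Jf, add_sub_cancel_right]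

theorem Jp_rf {x y : V} (h : dot x x ≠ 0) (k : dot y y ≠ 0) : Jp x * Jp y = Jp (rf x y) * Jp x :=
  Equiv.ext fun w => by
    simp only [Equiv.Perm.mul_apply, Jp_apply h, Jp_apply k, Jp_apply ((dot_rf h y y).trans_ne k), Jf_rf h]

/-- `-1` -/
def mo : Equiv.Perm W := Equiv.neg W
theorem mo_apply (w : W) : mo w = -w := rfl

theorem Ro.sq {x : V} (h : Ro x) : Jp x * Jp x = mo := Equiv.ext fun w => by
  rw [Equiv.Perm.mul_apply, h.apply, h.apply, Jf_sq, h, mo_apply]
  exact neg_one_smul (ZMod 3) w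

theorem Jp_ng {x : V} (h : dot x x ≠ 0) : Jp (ng x) = mo * Jp x := Equiv.ext fun w => by
  rw [Equiv.Perm.mul_apply, Jp_apply h, Jp_apply ((dot_ng x x).trans_ne h), Jf_ng, mo_apply]

theorem Ro.inv {x : V} (h : Ro x) : (Jp x)⁻¹ = Jp (H90.Q3.ng x) :=
  inv_eq_of_mul_eq_one_left (Equiv.ext fun w => by
    rw [Jp_ng h.ne, mul_assoc, h.sq]; simp [mo_apply])

/-- additive maps -/
def Ad (g : W → W) : Prop := ∀ w w', g (w + w') = g w + g w'

theorem Ad.zero {g : W → W} (h : Ad g) : g 0 = 0 := by simpa using h 0 0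
theorem Ad.neg {g : W → W} (h : Ad g) (w : W) : g (-w) = -g w :=
  eq_neg_of_add_eq_zero_left (by rw [← h, neg_add_cancel, h.zero])
theorem Ad.smul {g : W → W} (h : Ad g) (c : ZMod 3) (w : W) : g (c • w) = c • g w := by
  rcases z3 c with rfl | rfl | rfl <;> simp [h.zero, h.neg]

/-- the standard basis -/
def bs : Fin 4 → W := ![(⟨1, 0⟩, 0), (⟨0, 1⟩, 0), (0, ⟨1, 0⟩), (0, ⟨0, 1⟩)]

theorem Ad.eq {g : W → W} (h : Ad g) (w : W) :
    g w = w.1.re • g (bs 0) + w.1.im • g (bs 1) + w.2.re • g (bs 2) + w.2.im • g (bs 3) := by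
  rw [← h.smul, ← h.smul, ← h.smul, ← h.smul, ← h, ← h, ← h]
  congr 1
  apply W_ext <;> simp [bs]

theorem Ad.ext {g g' : W → W} (h : Ad g) (h' : Ad g') (e : ∀ i, g (bs i) = g' (bs i)) (w : W) : g w = g' w := by
  rw [h.eq, h'.eq, e, e, e, e]

theorem ad_Jp (x : V) : Ad (Jp x) := fun w w' => by
  by_cases h : dot x x = 0
  · simp [Jp, h]
  · simp only [Jp_apply h, Jf_add]

/-- `g` conjugates `J x` to `J y` -/
def Cn (g : Equiv.Perm W) (x y : V) : Prop := g * Jp x = Jp y * g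

theorem Cn.mul {g h : Equiv.Perm W} {x y z : V} (a : Cn g y z) (b : Cn h x y) : Cn (g * h) x z := by
  unfold Cn at *; rw [mul_assoc, b, ← mul_assoc, a, mul_assoc]

theorem Cn.inv {g : Equiv.Perm W} {x y : V} (a : Cn g x y) : Cn g⁻¹ y x := by
  unfold Cn at *; rw [inv_mul_eq_iff_eq_mul, ← mul_assoc, a]; simp

theorem Cn.conj {g : Equiv.Perm W} {x y : V} (a : Cn g x y) : g * Jp x * g⁻¹ = Jp y := by
  rw [a]; simp

theorem cn_Jp {x y : V} (h : dot x x ≠ 0) (k : dot y y ≠ 0) : Cn (Jp x) y (rf x y) := Jp_rf h k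

theorem Cn.ng {g : Equiv.Perm W} (hg : Ad g) {x y : V} (hx : dot x x ≠ 0) (hy : dot y y ≠ 0) (a : Cn g x y) :
    Cn g (ng x) (ng y) := Equiv.ext fun w => by
  have := Equiv.congr_fun a w
  simp only [Equiv.Perm.mul_apply, Jp_ng hx, Jp_ng hy, mo_apply, hg.neg] at this ⊢
  rw [this]

theorem Cn.dot {g : Equiv.Perm W} (hg : Ad g) {x y x' y' : V} (hx : Ro x) (hy : Ro y) (hx' : Ro x') (hy' : Ro y')
    (a : Cn g x y) (b : Cn g x' y') : dot y y' = dot x x' := by
  have a' : ∀ w, g (Jf x w) = Jf y (g w) := fun w => by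
    simpa only [Equiv.Perm.mul_apply, hx.apply, hy.apply] using Equiv.congr_fun a w
  have b' : ∀ w, g (Jf x' w) = Jf y' (g w) := fun w => by
    simpa only [Equiv.Perm.mul_apply, hx'.apply, hy'.apply] using Equiv.congr_fun b w
  have e := congrArg g (Jf_Jf x x' (g⁻¹ (bs 0)))
  rw [hg, a', b', b', a', Jf_Jf, hg.smul] at e
  have := congrArg (fun w : W => w.1.re) e
  simp [bs] at this
  grind

/-- the action of a word -/
def sh (l : List V) (y : V) : V := l.foldr rf y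
/-- the product of a word -/
def wd (l : List V) : Equiv.Perm W := (l.map Jp).prod

theorem dot_sh {l : List V} (h : ∀ a ∈ l, dot a a ≠ 0) (y z : V) : dot (sh l y) (sh l z) = dot y z := by
  induction l with
  | nil => rfl
  | cons a l ih =>
    exact (dot_rf (h a List.mem_cons_self) _ _).trans (ih fun b hb => h b (List.mem_cons_of_mem _ hb))

theorem cn_wd {l : List V} (h : ∀ a ∈ l, dot a a ≠ 0) {y : V} (k : dot y y ≠ 0) : Cn (wd l) y (sh l y) := by
  induction l with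
  | nil => simp [Cn, wd, sh]
  | cons a l ih =>
    have h' := fun b hb => h b (List.mem_cons_of_mem _ hb)
    exact (cn_Jp (h a List.mem_cons_self) ((dot_sh h' y y).trans_ne k)).mul (ih h')

theorem ad_wd (l : List V) : Ad (wd l) := by
  induction l with
  | nil => exact fun _ _ => rfl
  | cons a l ih =>
    intro w w'
    change Jp a (wd l (w + w')) = Jp a (wd l w) + Jp a (wd l w')
    rw [ih, ad_Jp]

theorem wd_mem {G : Subgroup (Equiv.Perm W)} {l : List V} (h : ∀ a ∈ l, Jp a ∈ G) : wd l ∈ G :=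
  list_prod_mem fun x hx => by
    obtain ⟨a, ha, rfl⟩ := List.mem_map.1 hx
    exact h a ha

/-- a word evaluated without the case distinction of `Jp` -/
theorem wd_apply {l : List V} (h : ∀ a ∈ l, dot a a ≠ 0) (w : W) : wd l w = l.foldr Jf w := by
  induction l with
  | nil => rfl
  | cons a l ih =>
    change Jp a (wd l w) = Jf a (l.foldr Jf w)
    rw [ih fun b hb => h b (List.mem_cons_of_mem _ hb), Jp_apply (h a List.mem_cons_self)]

/-- the roots whose reflections lie in `G` -/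
def Rt (G : Subgroup (Equiv.Perm W)) (x : V) : Prop := Ro x ∧ Jp x ∈ G

theorem Rt.ng {G : Subgroup (Equiv.Perm W)} {x : V} (h : Rt G x) : Rt G (ng x) :=
  ⟨h.1.ng, h.1.inv ▸ inv_mem h.2⟩

theorem Rt.rf {G : Subgroup (Equiv.Perm W)} {x y : V} (h : Rt G x) (k : Rt G y) : Rt G (rf x y) :=
  ⟨k.1.rf h.1.ne, (cn_Jp h.1.ne k.1.ne).conj ▸ mul_mem (mul_mem h.2 k.2) (inv_mem h.2)⟩

theorem rt_cW {G : Subgroup (Equiv.Perm W)} {l : List V} (h : ∀ a ∈ l, dot a a ≠ 0) {y : V} :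
    Rt (cW (wd l) G) y ↔ Rt G (sh l y) :=
  ⟨fun k => ⟨(dot_sh h y y).trans k.1, (cn_wd h k.1.ne).conj ▸ k.2⟩, fun k =>
    have r : Ro y := (dot_sh h y y).symm.trans k.1
    ⟨r, mem_cW.2 ((cn_wd h r.ne).conj.symm ▸ k.2)⟩⟩

/-- the group generated by the reflections in the roots with `P` -/
def GG (P : V → Prop) : Subgroup (Equiv.Perm W) := closure {g | ∃ x, Ro x ∧ P x ∧ g = Jp x}

theorem Jp_mem_GG {P : V → Prop} {x : V} (h : Ro x) (k : P x) : Jp x ∈ GG P := subset_closure ⟨x, h, k, rfl⟩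

theorem GG_le {G : Subgroup (Equiv.Perm W)} {P : V → Prop} (h : ∀ x, Ro x → P x → Jp x ∈ G) : GG P ≤ G :=
  (closure_le _).2 fun _ ⟨x, a, b, e⟩ => e ▸ h x a b

/-- simple roots -/
def a0 : V := ⟨1, -1, 0, 0, 0⟩
/-- simple roots -/
def a1 : V := ⟨0, 1, -1, 0, 0⟩
/-- simple roots -/
def a2 : V := ⟨0, 0, 1, -1, 0⟩
/-- simple roots -/
def a3 : V := ⟨0, 0, 0, 1, -1⟩
/-- simple roots -/
def a4 : V := ⟨0, 0, 0, 1, 1⟩
/-- the fourth simple root of `D₄` -/
def b3 : V := ⟨0, 0, 1, 1, 0⟩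
/-- the third simple root of `D₃` -/
def b2 : V := ⟨0, 1, 1, 0, 0⟩
/-- the root orthogonal to `A₄` -/
def ee : V := ⟨1, 1, 1, 1, 1⟩

/-- `D₅` -/
def pD5 (x : V) : Prop := x.x0 * x.x1 * x.x2 * x.x3 * x.x4 = 0
/-- `D₄` -/
def pD4 (x : V) : Prop := x.x4 = 0
/-- `D₃` -/
def pD3 (x : V) : Prop := x.x3 = 0 ∧ x.x4 = 0
/-- `D₃ + 2 A₁` -/
def pD32 (x : V) : Prop := pD3 x ∨ x.x0 = 0 ∧ x.x1 = 0 ∧ x.x2 = 0
/-- `A₄` -/
def pA4 (x : V) : Prop := pD5 x ∧ dot x ee = 0
/-- `A₄ + A₁` -/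
def pA41 (x : V) : Prop := pA4 x ∨ x = ee ∨ x = ng ee
/-- the reflections fixing `L₀ = {a = 0}` -/
def pL (x : V) : Prop := x.x0 + x.x1 + x.x2 = 0

instance instDec1 (x : V) : Decidable (pD5 x) := by unfold pD5; infer_instance
instance instDec2 (x : V) : Decidable (pD4 x) := by unfold pD4; infer_instance
instance instDec3 (x : V) : Decidable (pD3 x) := by unfold pD3; infer_instance
instance instDec4 (x : V) : Decidable (pD32 x) := by unfold pD32; infer_instance
instance instDec5 (x : V) : Decidable (pA4 x) := by unfold pA4; infer_instance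
instance instDec6 (x : V) : Decidable (pA41 x) := by unfold pA41; infer_instance
instance instDec7 (x : V) : Decidable (pL x) := by unfold pL; infer_instance

end H90.Q3
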