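/- T3 tower (row S5228), job AS: the signs of an automorphism on the chief factors. -/
import Cfsg.Agent.H11.T3Spec

set_option autoImplicit false
set_option linter.unusedSectionVars false
set_option linter.unusedSimpArgs false

open Subgroup H11.T3 H11.T3.Co
open H90.RF (cm Au Pr)

namespace H90.T3AS

/-- a coordinate additive on `Y` with kernel `X` is multiplied by a non-zero scalar -/
theorem scal {θ : Co → Co} (hθ : Au ⊤ θ) {X Y : Subgroup Co} (pX : Pr θ X) (pY : Pr θ Y) (π : Co → ZMod 3)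
    (add : ∀ u ∈ Y, ∀ w ∈ Y, π (u * w) = π u + π w) (ker : ∀ u ∈ Y, u ∈ X ↔ π u = 0)
    {g : Co} (hg : g ∈ Y) (g1 : π g = 1) : π (θ g) ≠ 0 ∧ ∀ u ∈ Y, π (θ u) = π (θ g) * π u := by
  have k0 : ∀ u ∈ Y, π u = 0 → π (θ u) = 0 := fun u hu e => (ker _ (pY u hu)).1 (pX u ((ker u hu).2 e))
  have ad : ∀ u ∈ Y, ∀ w ∈ Y, π (θ (u * w)) = π (θ u) + π (θ w) := fun u hu w hw => by
    rw [hθ.mul u trivial w trivial, add _ (pY u hu) _ (pY w hw)]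
  have m1 : ∀ u ∈ Y, π u = -1 → π (θ u) = -π (θ g) := fun u hu e => by
    have := k0 _ (mul_mem hg hu) (by rw [add g hg u hu, g1, e]; ring)
    rw [ad g hg u hu] at this
    linear_combination this
  refine ⟨fun e => ?_, fun u hu => ?_⟩
  · have := (ker g hg).1 (hθ.mem_of le_top pX trivial ((ker _ (pY g hg)).2 e))
    rw [g1] at this
    exact absurd this (by decide)
  · rcases z3 (π u) with e | e | e
    · rw [k0 u hu e, e, mul_zero]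
    · have h2 := m1 _ (mul_mem hg hu) (by rw [add g hg u hu, g1, e]; decide)
      rw [ad g hg u hu] at h2
      have h3 : (3 : ZMod 3) = 0 := rfl
      rw [e]
      linear_combination h2 - π (θ g) * h3
    · rw [m1 u hu e, e]; ring

theorem sp {P : Type*} [Group P] {θ : P → P} (hθ : Au ⊤ θ) {X : Subgroup P} (c u : P) (h1 : θ c ∈ X)
    (h2 : θ (c⁻¹ * u) ∈ X) : θ u ∈ X := by
  have := mul_mem h1 h2
  rwa [← hθ.mul c trivial _ trivial, mul_inv_cancel_left] at this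

theorem pr_P {θ : Co → Co} (hθ : Au ⊤ θ) (pD : Pr θ sD2) : Pr θ sP := by
  have kc : ∀ s m, θ (cm s m) ∈ sP := fun s m => by rw [hθ.cm trivial trivial]; exact cm_P _ _
  have k5 : ∀ z ∈ sZ5, θ z ∈ sP := fun z hz => by
    obtain ⟨p0, p1, p2, p3⟩ := hz
    have hw : (cm (xb 1) (xd z.e))⁻¹ * z ∈ sD2 := by
      simp [mem_sD2, cm_b, cm_a, cm_d, cm_c, cm_e, xb, xd, p0, p1, p2, p3]
    exact sp hθ _ _ (kc _ _) (Z5_le_P (D2_le_Z5 (pD _ hw)))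
  intro u hu
  obtain ⟨p0, p1, p2⟩ := hu
  have hw : (cm (xb 1) (xa u.d))⁻¹ * u ∈ sZ5 := by
    simp [mem_sZ5, cm_b, cm_a, cm_d, cm_c, xb, xa, p0, p1, p2]
  exact sp hθ _ _ (kc _ _) (k5 _ hw)

theorem jobAS : JobAS := by
  intro θ hθ pE1 pz
  have p0 : Pr θ ⊥ := pz 0
  have p1 : Pr θ sZ1 := pz 1
  have p2 : Pr θ sZ2 := pz 2
  have p3 : Pr θ sZ3 := pz 3
  have p4 : Pr θ sZ4 := pz 4
  have p5 : Pr θ sD2 := pz 5
  have p6 : Pr θ sC4 := pz 6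
  have p7 : Pr θ sC3 := pz 7
  have p8 : Pr θ sZ6 := pz 8
  have p9 : Pr θ sE2 := pz 9
  have pT : Pr θ ⊤ := fun _ _ => trivial
  have pP := pr_P hθ p5
  obtain ⟨x0, ha⟩ := scal hθ pE1 pT (fun u => u.a) (fun _ _ _ _ => rfl) (fun _ _ => Iff.rfl) (g := xa 1) trivial rfl
  obtain ⟨y0, hb⟩ := scal hθ p9 pT (fun u => u.b) (fun _ _ _ _ => rfl) (fun _ _ => Iff.rfl) (g := xb 1) trivial rfl
  obtain ⟨-, hd⟩ := scal hθ p7 p8 (fun u => u.d) (by rintro u ⟨q0, q1⟩ w ⟨r0, r1⟩; simp [q1])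
    (by rintro u ⟨q0, q1⟩; simp [mem_sC3, q0, q1]) (g := xd 1) ⟨rfl, rfl⟩ rfl
  obtain ⟨-, hc⟩ := scal hθ pP p8 (fun u => u.c - u.d) (by rintro u ⟨q0, q1⟩ w ⟨r0, r1⟩; simp [q1]; ring)
    (by rintro u ⟨q0, q1⟩; simp [mem_sP, q0, q1, sub_eq_zero]) (g := xc 1) ⟨rfl, rfl⟩ (by simp [xc])
  obtain ⟨-, he⟩ := scal hθ p6 p7 (fun u => u.e) (by rintro u ⟨q0, q1, q2⟩ w ⟨r0, r1, r2⟩; simp [r0])
    (by rintro u ⟨q0, q1, q2⟩; simp [mem_sC4, q0, q1, q2]) (g := xe 1) ⟨rfl, rfl, rfl⟩ rfl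
  obtain ⟨-, hf⟩ := scal hθ p4 p5 (fun u => u.f)
    (by rintro u ⟨q0, q1, q2, q3, q4⟩ w ⟨r0, r1, r2, r3, r4⟩; simp [r0, r1])
    (by rintro u ⟨q0, q1, q2, q3, q4⟩; simp [mem_sZ4, q0, q1, q2, q3, q4]) (g := xf 1) ⟨rfl, rfl, rfl, rfl, rfl⟩ rfl
  obtain ⟨-, hg⟩ := scal hθ p3 p4 (fun u => u.g)
    (by rintro u ⟨q0, q1, q2, q3, q4, q5⟩ w ⟨r0, r1, r2, r3, r4, r5⟩; simp [r0, r1, r2])
    (by rintro u ⟨q0, q1, q2, q3, q4, q5⟩; simp [mem_sZ3, q0, q1, q2, q3, q4, q5]) (g := xg 1)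
    ⟨rfl, rfl, rfl, rfl, rfl, rfl⟩ rfl
  obtain ⟨-, hh⟩ := scal hθ p2 p3 (fun u => u.h)
    (by rintro u ⟨q0, q1, q2, q3, q4, q5, q6⟩ w ⟨r0, r1, r2, r3, r4, r5, r6⟩; simp [r0, r1, r2, r3])
    (by rintro u ⟨q0, q1, q2, q3, q4, q5, q6⟩; simp [mem_sZ2, q0, q1, q2, q3, q4, q5, q6]) (g := xh 1)
    ⟨rfl, rfl, rfl, rfl, rfl, rfl, rfl⟩ rfl
  obtain ⟨-, hi⟩ := scal hθ p1 p2 (fun u => u.i)
    (by rintro u ⟨q0, q1, q2, q3, q4, q5, q6, q7⟩ w ⟨r0, r1, r2, r3, r4, r5, r6, r7⟩; simp [r0, r1, r2, r4])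
    (by rintro u ⟨q0, q1, q2, q3, q4, q5, q6, q7⟩; simp [mem_sZ1, q0, q1, q2, q3, q4, q5, q6, q7]) (g := xi 1)
    ⟨rfl, rfl, rfl, rfl, rfl, rfl, rfl, rfl⟩ rfl
  obtain ⟨-, hj⟩ := scal hθ p0 p1 (fun u => u.j)
    (by
      rintro u ⟨q0, q1, q2, q3, q4, q5, q6, q7, q8⟩ w ⟨r0, r1, r2, r3, r4, r5, r6, r7, r8⟩
      simp [r0, r1, r2, r3, r4])
    (by
      rintro u ⟨q0, q1, q2, q3, q4, q5, q6, q7, q8⟩
      rw [mem_bot]
      exact ⟨fun e => by rw [e]; rfl, fun e => by ext <;> simp [*]⟩) (g := xj 1)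
    ⟨rfl, rfl, rfl, rfl, rfl, rfl, rfl, rfl, rfl⟩ rfl
  have A0 : (θ (xa 1)).b = 0 := p9 _ rfl
  have B0 : (θ (xb 1)).a = 0 := pE1 _ rfl
  obtain ⟨D0, D1⟩ := p8 (xd 1) ⟨rfl, rfl⟩
  obtain ⟨C0, C1, C2, C3⟩ := p6 (xc 1) ⟨rfl, rfl, rfl, rfl⟩
  obtain ⟨E0, E1, E2⟩ := p7 (xe 1) ⟨rfl, rfl, rfl⟩
  have E3 : (θ (xe 1)).c = 0 := (pP (xe 1) ⟨rfl, rfl, rfl⟩).2.2.trans E2
  obtain ⟨F0, F1, F2, F3, F4⟩ := p5 (xf 1) ⟨rfl, rfl, rfl, rfl, rfl⟩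
  obtain ⟨G0, G1, G2, G3, G4, G5⟩ := p4 (xg 1) ⟨rfl, rfl, rfl, rfl, rfl, rfl⟩
  obtain ⟨H0, H1, H2, H3, H4, H5, H6⟩ := p3 (xh 1) ⟨rfl, rfl, rfl, rfl, rfl, rfl, rfl⟩
  obtain ⟨I0, I1, I2, I3, I4, I5, I6, I7⟩ := p2 (xi 1) ⟨rfl, rfl, rfl, rfl, rfl, rfl, rfl, rfl⟩
  have hc' : ∀ s m, θ (cm s m) = cm (θ s) (θ m) := fun s m => hθ.cm trivial trivial
  have r1 := hd _ (P_le_Z6 (cm_P (xb 1) (xa 1)))
  have r2 := he _ (Z5_le_C3 (cm_Z6 (xb 1) (m := xd 1) ⟨rfl, rfl⟩))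
  have r3 := hg _ (cm_Z5 (xa 1) (m := xe 1) ⟨rfl, rfl, rfl, rfl⟩)
  have r4 := hf _ (cm_C4 (xa 1) (m := xc 1) ⟨rfl, rfl, rfl, rfl⟩)
  have r5 := hg _ (cm_D2 (xb 1) (m := xf 1) ⟨rfl, rfl, rfl, rfl, rfl⟩)
  have r6 := hh _ (cm_Z4 (xb 1) (m := xg 1) ⟨rfl, rfl, rfl, rfl, rfl, rfl⟩)
  have r7 := hi _ (cm_Z3 (xa 1) (m := xh 1) ⟨rfl, rfl, rfl, rfl, rfl, rfl, rfl⟩)
  have r8 := hj _ (cm_Z2 (xb 1) (m := xi 1) ⟨rfl, rfl, rfl, rfl, rfl, rfl, rfl, rfl⟩)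
  rw [hc'] at r1 r2 r3 r4 r5 r6 r7 r8
  have v1 : (cm (xb 1) (xa 1)).d = 1 := by simp [cm_d, xb, xa]
  have v2 : (cm (xb 1) (xd 1)).e = 1 := by simp [cm_e, xb, xd]
  have v3 : (cm (xa 1) (xe 1)).g = -1 := by simp [cm_g, xa, xe]
  have v4 : (cm (xa 1) (xc 1)).f = 1 := by simp [cm_f, xa, xc]
  have v5 : (cm (xb 1) (xf 1)).g = -1 := by simp [cm_g, xb, xf]
  have v6 : (cm (xb 1) (xg 1)).h = 1 := by simp [cm_h, xb, xg]
  have v7 : (cm (xa 1) (xh 1)).i = -1 := by simp [cm_i, xa, xh]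
  have v8 : (cm (xb 1) (xi 1)).j = 1 := by simp [cm_j, xb, xi]
  rw [v1, cm_d] at r1
  rw [v2, cm_e] at r2
  rw [v3, cm_g] at r3
  rw [v4, cm_f] at r4
  rw [v5, cm_g] at r5
  rw [v6, cm_h] at r6
  rw [v7, cm_i] at r7
  rw [v8, cm_j] at r8
  simp only [A0, B0, D0, D1, C0, C1, C2, C3, E0, E1, E2, E3, F0, F1, F2, F3, F4, G0, G1, G2, G3, G4, G5, H0, H1, H2,
    H3, H4, H5, H6, I0, I1, I2, I3, I4, I5, I6, I7, mul_zero, zero_mul, add_zero, sub_zero, neg_zero, zero_sub, zero_add,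
    mul_one, ne_eq, OfNat.ofNat_ne_zero, not_false_eq_true, zero_pow, mul_neg, neg_mul, neg_inj] at r1 r2 r3 r4 r5 r6 r7 r8 hc
  have x2 := sq1 x0
  have y2 := sq1 y0
  generalize (θ (xa 1)).a = x at *
  generalize (θ (xb 1)).b = y at *
  have ld : (θ (xd 1)).d = x * y := by linear_combination -r1
  have le : (θ (xe 1)).e = x := by rw [ld] at r2; linear_combination -r2 + x * y2
  have lg : (θ (xg 1)).g = 1 := by rw [le] at r3; linear_combination -r3 + x2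
  have lf : (θ (xf 1)).f = y := by rw [lg] at r5; linear_combination y * r5 - (θ (xf 1)).f * y2
  have lc : (θ (xc 1)).c = x * y := by rw [lf] at r4; linear_combination x * r4 - (θ (xc 1)).c * x2
  have lh : (θ (xh 1)).h = y := by rw [lg] at r6; linear_combination -r6
  have li : (θ (xi 1)).i = x * y := by rw [lh] at r7; linear_combination -r7
  have lj : (θ (xj 1)).j = x := by rw [li] at r8; linear_combination -r8 + x * y2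
  rw [ld] at hd; rw [lc] at hc; rw [le] at he; rw [lf] at hf; rw [lg] at hg; rw [lh] at hh; rw [li] at hi
  rw [lj] at hj
  exact ⟨x, y, x0, y0, fun u => hb u trivial, fun u => ha u trivial, hd,
    fun u hu => by linear_combination hc u hu + hd u hu, he, hf, fun u hu => by rw [hg u hu, one_mul], hh, hi, hj⟩

end H90.T3AS
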