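import Cfsg.Agent.H52.SimXSSpec

/-! The algebra spanned by an extraspecial type group is central simple. -/

set_option autoImplicit false

namespace H90.XsSA

open Subgroup Cfsg Matrix H0.Sim H52.XS

variable {n : ℕ} {F : Type} [Field F] {Z E : Subgroup (GL (Fin n) F)} {P : Mt n F →ₗ[F] Mt n F}

theorem sc_iff (m : Mt n F) : Sc m ↔ ∃ c : F, m = c • (1 : Mt n F) := by
  refine exists_congr fun c => ?_
  rw [Matrix.scalar_apply, Matrix.smul_one_eq_diagonal]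

theorem mem_AE {e : GL (Fin n) F} (he : e ∈ E) : (e : Mt n F) ∈ AE E :=
  Algebra.subset_adjoin ⟨e, he, rfl⟩

theorem span_AE {m : Mt n F} (hm : m ∈ AE E) : m ∈ Submodule.span F (mat E) := by
  have h : Subalgebra.toSubmodule (Algebra.adjoin F (mat E)) = Submodule.span F (mat E) := by
    apply Algebra.adjoin_eq_span_of_subset
    intro x hx
    apply Submodule.subset_span
    induction hx using Submonoid.closure_induction with
    | mem y hy => exact hy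
    | one => exact ⟨1, E.one_mem, rfl⟩
    | mul a b _ _ ha hb =>
      obtain ⟨e, he, rfl⟩ := ha
      obtain ⟨f, hf, rfl⟩ := hb
      exact ⟨e * f, E.mul_mem he hf, rfl⟩
  rw [← h]
  exact hm

theorem P_CE (hA : Av Z E P) {m : Mt n F} (hm : m ∈ CE E) : P m = m := by
  have := hA.l m hm 1
  rw [mul_one, hA.one, mul_one] at this
  exact this

theorem sc_P (hX : Ex Z E) (hA : Av Z E P) {m : Mt n F} (hm : m ∈ AE E) :
    ∃ c : F, P m = c • (1 : Mt n F) := by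
  have h := span_AE hm
  clear hm
  induction h using Submodule.span_induction with
  | mem x hx =>
    obtain ⟨e, he, rfl⟩ := hx
    by_cases hz : e ∈ Z
    · obtain ⟨c, hc⟩ := (sc_iff _).1 (hX.Zc e hz)
      exact ⟨c, by rw [hc, map_smul, hA.one]⟩
    · exact ⟨0, by rw [hA.zero e he hz, zero_smul]⟩
  | zero => exact ⟨0, by simp⟩
  | add x y _ _ hx hy =>
    obtain ⟨a, ha⟩ := hx
    obtain ⟨b, hb⟩ := hy
    exact ⟨a + b, by rw [map_add, ha, hb, add_smul]⟩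
  | smul a x _ hx =>
    obtain ⟨b, hb⟩ := hx
    exact ⟨a * b, by rw [map_smul, hb, smul_smul]⟩

theorem cen (hX : Ex Z E) (hA : Av Z E P) {m : Mt n F} (h1 : m ∈ AE E) (h2 : m ∈ CE E) : Sc m := by
  obtain ⟨c, hc⟩ := sc_P hX hA h1
  rw [P_CE hA h2] at hc
  exact (sc_iff m).2 ⟨c, hc⟩

/-- The image of an ideal of `AE E` in the matrix ring. -/
def idl (I : TwoSidedIdeal (AE E)) : Submodule F (Mt n F) where
  carrier := {m | ∃ a ∈ I, (a : Mt n F) = m}
  add_mem' := by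
    rintro _ _ ⟨a, ha, rfl⟩ ⟨b, hb, rfl⟩
    exact ⟨a + b, I.add_mem ha hb, rfl⟩
  zero_mem' := ⟨0, I.zero_mem, rfl⟩
  smul_mem' := by
    rintro c _ ⟨a, ha, rfl⟩
    refine ⟨(c • (1 : AE E)) * a, I.mul_mem_left _ _ ha, ?_⟩
    simp

theorem simple (hX : Ex Z E) (hA : Av Z E P) : IsSimpleRing (AE E) := by
  haveI : Nonempty (Fin n) := ⟨⟨0, hX.pos⟩⟩
  apply IsSimpleRing.of_eq_bot_or_eq_top
  intro I
  by_cases hI : I = ⊥
  · exact Or.inl hI
  right
  obtain ⟨w, hw, hw0⟩ : ∃ w ∈ I, w ≠ 0 := by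
    by_contra h
    push Not at h
    exact hI (eq_bot_iff.2 fun x hx => (TwoSidedIdeal.mem_bot _).2 (h x hx))
  obtain ⟨T, hT, -, -, hs⟩ := hA.sum
  obtain ⟨x, hx, hx0⟩ : ∃ x ∈ T, P (((x⁻¹ : GL (Fin n) F) : Mt n F) * (w : Mt n F)) ≠ 0 := by
    by_contra h
    push Not at h
    apply hw0
    apply Subtype.ext
    rw [hs (w : Mt n F)]
    exact Finset.sum_eq_zero fun x hx => by rw [h x hx, mul_zero]
  have hxi : ((x⁻¹ : GL (Fin n) F) : Mt n F) ∈ AE E := mem_AE (E.inv_mem (hT x hx))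
  have hmem : ((x⁻¹ : GL (Fin n) F) : Mt n F) * (w : Mt n F) ∈ idl I :=
    ⟨⟨_, hxi⟩ * w, I.mul_mem_left _ _ hw, rfl⟩
  have hP := hA.sub (idl I) (by
    rintro e he _ ⟨a, ha, rfl⟩
    exact ⟨⟨_, mem_AE he⟩ * a * ⟨_, mem_AE (E.inv_mem he)⟩,
      I.mul_mem_right _ _ (I.mul_mem_left _ _ ha), rfl⟩) _ hmem
  obtain ⟨c, hc⟩ := sc_P hX hA ((AE E).mul_mem hxi w.2)
  have hc0 : c ≠ 0 := by
    rintro rfl
    exact hx0 (by rw [hc, zero_smul])
  have h1 : (1 : Mt n F) ∈ idl I := by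
    have := (idl I).smul_mem c⁻¹ hP
    rwa [hc, smul_smul, inv_mul_cancel₀ hc0, one_smul] at this
  obtain ⟨a, ha, ha1⟩ := h1
  have : a = 1 := Subtype.ext ha1
  rw [this] at ha
  exact (TwoSidedIdeal.one_mem_iff I).1 ha

theorem jobSA : JobSA := by
  intro n F _ _ Z E P hX hA
  haveI : Nonempty (Fin n) := ⟨⟨0, hX.pos⟩⟩
  refine ⟨simple hX hA, fun m h1 h2 => cen hX hA h1 h2, ?_⟩
  have hb : AE E ⊓ CE E = ⊥ := by
    refine eq_bot_iff.2 fun m hm => ?_
    obtain ⟨c, hc⟩ := (sc_iff m).1 (cen hX hA hm.1 hm.2)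
    rw [hc]
    exact Subalgebra.smul_mem _ (Subalgebra.one_mem _) c
  rw [hb, ← Nat.card_eq_fintype_card]
  exact Nat.card_congr (Algebra.botEquiv F (Mt n F)).toEquiv

end H90.XsSA
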